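import Mathlib

/-!
# CALL S1906 piece CENT (helper19, for helper14)
-/

set_option autoImplicit false

namespace Cfsg.Agent.Helper19.S1906P

variable {F : Type*} [Field F] {V : Type*} [AddCommGroup V] [Module F V] {P : Type*} [Group P]

/-- CENT. An element acting as `-1` on `L` and `1` on `W` (both `P`-invariant, `L ⊔ W = ⊤`) is
central: `ρ (x * u)` and `ρ (u * x)` agree on `L` and on `W`, hence everywhere; faithfulness. -/
theorem s1906_cent (ρ : Representation F P V) (hfaith : ∀ x : P, (∀ v : V, ρ x v = v) → x = 1)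
    (L W : Submodule F V) (hLW : IsCompl L W) (hL : ∀ x : P, ∀ v ∈ L, ρ x v ∈ L)
    (hW : ∀ x : P, ∀ v ∈ W, ρ x v ∈ W) (u : P) (huL : ∀ v ∈ L, ρ u v = -v)
    (huW : ∀ v ∈ W, ρ u v = v) : ∀ x : P, x * u = u * x := by
  intro x
  have key : ∀ v : V, ρ (x * u) v = ρ (u * x) v := by
    intro v
    have hv : v ∈ L ⊔ W := by rw [hLW.sup_eq_top]; trivial
    obtain ⟨l, hl, w, hw, rfl⟩ := Submodule.mem_sup.mp hv
    simp only [map_mul, Module.End.mul_apply, map_add]
    rw [huL l hl, huW w hw, huL _ (hL x l hl), huW _ (hW x w hw), map_neg]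
  have h1 : (u * x)⁻¹ * (x * u) = 1 := by
    apply hfaith
    intro v
    rw [map_mul, Module.End.mul_apply, key v, ← Module.End.mul_apply, ← map_mul, inv_mul_cancel,
      map_one, Module.End.one_apply]
  exact (inv_mul_eq_one.mp h1).symm

end Cfsg.Agent.Helper19.S1906P
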