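import Mathlib

/-!
# CALL S1906 piece FULL (helper19, for helper14)
-/

set_option autoImplicit false

namespace Cfsg.Agent.Helper19.S1906P

variable {F : Type*} [Field F] {V : Type*} [AddCommGroup V] [Module F V] {P : Type*} [Group P]

/-- FULL. `E` is the full group of sign changes of the basis `b`: the map
`E → (Fin 3 → Bool)`, `a ↦ (j ↦ decide (ρ a (b j) = -b j))` is injective (two elements with the
same signs agree on the basis, so `ρ (a⁻¹ * a') = 1` and `a = a'` by faithfulness; `b j ≠ -b j` as
`2 ≠ 0`), and both sides have `8` elements, so it is surjective. -/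
theorem s1906_full (h2 : (2 : F) ≠ 0) (ρ : Representation F P V) (E : Subgroup P)
    (hfaith : ∀ a ∈ E, (∀ v : V, ρ a v = v) → a = 1) (hcard : Nat.card E = 8)
    (b : Module.Basis (Fin 3) F V)
    (hb : ∀ a ∈ E, ∀ j, ρ a (b j) = b j ∨ ρ a (b j) = -b j) :
    ∀ i : Fin 3, ∃ a ∈ E, ∀ j, ρ a (b j) = if j = i then -b j else b j := by
  classical
  have hfin : Finite E := Nat.finite_of_card_ne_zero (by rw [hcard]; norm_num)
  let s : E → (Fin 3 → Bool) := fun a j => decide (ρ (a : P) (b j) = -b j)
  have hval : ∀ (a : E) (j : Fin 3), ρ (a : P) (b j) = if s a j = true then -b j else b j := by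
    intro a j
    by_cases h : ρ (a : P) (b j) = -b j
    · have hs : s a j = true := decide_eq_true h
      rw [if_pos hs]; exact h
    · have hs : s a j = false := decide_eq_false h
      rw [if_neg (by rw [hs]; exact Bool.false_ne_true)]
      exact (hb a a.2 j).resolve_right h
  have hinj : Function.Injective s := by
    intro a a' haa
    have h1 : ρ (a : P) = ρ (a' : P) := by
      apply b.ext
      intro j
      rw [hval a j, hval a' j, haa]
    have h2' : (a : P)⁻¹ * (a' : P) = 1 := by
      apply hfaith _ (E.mul_mem (E.inv_mem a.2) a'.2)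
      intro v
      rw [map_mul, Module.End.mul_apply, ← h1, ← Module.End.mul_apply, ← map_mul, inv_mul_cancel,
        map_one, Module.End.one_apply]
    exact Subtype.ext (inv_mul_eq_one.mp h2')
  have hbij : Function.Bijective s := by
    apply hinj.bijective_of_nat_card_le
    rw [Nat.card_eq_fintype_card, Fintype.card_fun, Fintype.card_bool, Fintype.card_fin, hcard]
    norm_num
  intro i
  obtain ⟨a, ha⟩ := hbij.2 (fun j => decide (j = i))
  refine ⟨a, a.2, fun j => ?_⟩
  rw [hval a j, ha]
  by_cases hj : j = i
  · simp [hj]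
  · simp [hj]

end Cfsg.Agent.Helper19.S1906P
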