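import Mathlib

/-!
# CALL S1906 piece TWO (helper19, for helper14)
-/

set_option autoImplicit false

namespace Cfsg.Agent.Helper19.S1906P

variable {F : Type*} [Field F] {V : Type*} [AddCommGroup V] [Module F V] {P : Type*} [Group P]

/-- TWO. A finite field of odd order has `2 ≠ 0` (else `CharP F 2`, and the order is a power of
`2`; e.g. `FiniteField.even_card_iff_char_two`). -/
theorem s1906_two [Fintype F] (hF : Odd (Fintype.card F)) : (2 : F) ≠ 0 := by
  intro h2
  obtain ⟨k, hk⟩ := hF
  have h0 : ((Fintype.card F : ℕ) : F) = 0 := Nat.cast_card_eq_zero F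
  rw [hk] at h0
  push_cast at h0
  rw [h2, zero_mul, zero_add] at h0
  exact one_ne_zero h0

end Cfsg.Agent.Helper19.S1906P
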