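import Mathlib

/-!
# Pure arithmetic pieces N0, N1, N2, Na of CALL S0999 (Brauer–Reynolds)
-/

set_option autoImplicit false

namespace Cfsg.Agent.Helper19

/-- Piece N0 of CALL S0999. -/
theorem br_num_b (q n p x₀ : ℕ) (ε : ℤ) (hq2 : 2 ≤ q) (hn : 1 ≤ n) (hp : 2 ≤ p) (hx : 1 ≤ x₀)
    (hε : ε = 1 ∨ ε = -1) (hdvd : x₀ ∣ q * (1 + n * p))
    (hrel : ε * (x₀ : ℤ) = 1 + ((q : ℤ) - 1) * (1 + n * p)) : False := by
  have hq2' : (2 : ℤ) ≤ q := by exact_mod_cast hq2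
  have hx' : (1 : ℤ) ≤ x₀ := by exact_mod_cast hx
  have hnp : 2 ≤ n * p := by
    have h0 := Nat.mul_le_mul hn hp
    omega
  have hnp' : (2 : ℤ) ≤ (n : ℤ) * p := by exact_mod_cast hnp
  rcases hε with rfl | rfl
  · have hx0 : (x₀ : ℤ) = 1 + ((q : ℤ) - 1) * (1 + n * p) := by linarith
    have hnat : x₀ + n * p = q * (1 + n * p) := by
      zify
      rw [hx0]
      ring
    have hd2 : x₀ ∣ n * p := by
      have h3 : x₀ ∣ x₀ + n * p := by rw [hnat]; exact hdvd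
      exact (Nat.dvd_add_right (dvd_refl x₀)).mp h3
    have hle : x₀ ≤ n * p := Nat.le_of_dvd (by omega) hd2
    have hle' : (x₀ : ℤ) ≤ (n : ℤ) * p := by exact_mod_cast hle
    linarith [mul_nonneg (show (0 : ℤ) ≤ (q : ℤ) - 2 by linarith)
      (show (0 : ℤ) ≤ 1 + (n : ℤ) * p by linarith)]
  · linarith [mul_nonneg (show (0 : ℤ) ≤ (q : ℤ) - 1 by linarith)
      (show (0 : ℤ) ≤ 1 + (n : ℤ) * p by linarith)]

/-- Piece N1 of CALL S0999. -/
theorem br_num_X1 (p q n v d : ℕ) (hp : p.Prime) (hq2 : 2 ≤ q) (hqd : q ∣ p - 1) (hn : 1 ≤ n)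
    (hv : 1 ≤ v) (hlt : q * v * n < p) (hd2 : 2 ≤ d) (hd1 : (d : ℤ) ≡ 1 [ZMOD p])
    (hdvd : d ∣ q * (1 + n * p)) : d = 1 + n * p := by
  have hp2 : 2 ≤ p := hp.two_le
  have hq_le : q ≤ p - 1 := Nat.le_of_dvd (by omega) hqd
  have hqn : q * n < p := by
    have h1 : q * n ≤ q * v * n := by
      calc q * n = q * 1 * n := by rw [mul_one]
        _ ≤ q * v * n := Nat.mul_le_mul_right n (Nat.mul_le_mul_left q hv)
    omega
  have hp2z : (2 : ℤ) ≤ p := by exact_mod_cast hp2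
  have hqz : (q : ℤ) ≤ p - 1 := by
    have h0 : q + 1 ≤ p := by omega
    have h' : ((q + 1 : ℕ) : ℤ) ≤ p := by exact_mod_cast h0
    push_cast at h'
    linarith
  have hq2z : (2 : ℤ) ≤ q := by exact_mod_cast hq2
  have hqnz : (q : ℤ) * n ≤ p - 1 := by
    have h0 : q * n + 1 ≤ p := by omega
    have h' : ((q * n + 1 : ℕ) : ℤ) ≤ p := by exact_mod_cast h0
    push_cast at h'
    linarith
  have hd2z : (2 : ℤ) ≤ d := by exact_mod_cast hd2
  obtain ⟨k, hk⟩ : (p : ℤ) ∣ (d : ℤ) - 1 := Int.modEq_iff_dvd.mp hd1.symm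
  have hk1 : 1 ≤ k := by
    by_contra hcon
    have hk0 : k ≤ 0 := by omega
    linarith [mul_nonneg (show (0 : ℤ) ≤ p by linarith) (show (0 : ℤ) ≤ -k by linarith)]
  have hdge : (p : ℤ) + 1 ≤ d := by
    linarith [mul_nonneg (show (0 : ℤ) ≤ p by linarith) (show (0 : ℤ) ≤ k - 1 by linarith)]
  obtain ⟨c, hc⟩ := hdvd
  have hcz : (q : ℤ) * (1 + n * p) = d * c := by exact_mod_cast hc
  have hc0 : (0 : ℤ) ≤ c := by exact_mod_cast Nat.zero_le c
  have hbound : (q : ℤ) * (1 + n * p) ≤ (p - 1) + (p - 1) * p := by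
    linarith [mul_nonneg (show (0 : ℤ) ≤ (p : ℤ) - 1 - q * n by linarith)
      (show (0 : ℤ) ≤ p by linarith)]
  have hcp : (c : ℤ) < p := by
    by_contra hcon
    have hcge : (p : ℤ) ≤ c := by linarith
    linarith [mul_nonneg (show (0 : ℤ) ≤ (d : ℤ) - (p + 1) by linarith) hc0,
      mul_nonneg (show (0 : ℤ) ≤ (p : ℤ) + 1 by linarith) (show (0 : ℤ) ≤ (c : ℤ) - p by linarith)]
  have hdvd2 : (p : ℤ) ∣ (q : ℤ) - c := by
    refine ⟨k * c - q * n, ?_⟩
    have hd : (d : ℤ) = 1 + p * k := by linarith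
    rw [hd] at hcz
    linear_combination hcz
  have habs : |(q : ℤ) - c| < p := by
    rw [abs_lt]
    constructor <;> linarith
  have hqc : (q : ℤ) - c = 0 := Int.eq_zero_of_abs_lt_dvd hdvd2 habs
  have hqc' : q = c := by
    have h0 : (q : ℤ) = c := by linarith
    exact_mod_cast h0
  rw [← hqc'] at hc
  have hq0 : 0 < q := by omega
  have h5 : q * (1 + n * p) = q * d := by rw [hc, mul_comm]
  exact (Nat.eq_of_mul_eq_mul_left hq0 h5).symm

/-- Piece N2 of CALL S0999. -/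
theorem br_num_X2 (p q n v d : ℕ) (hp : p.Prime) (hq2 : 2 ≤ q) (hqd : q ∣ p - 1) (hn : 1 ≤ n)
    (hv : 1 ≤ v) (hlt : q * v * n < p) (hd1 : (d : ℤ) ≡ -1 [ZMOD p])
    (hdvd : d ∣ q * (1 + n * p)) (hsq : d ^ 2 < p * q * v * (1 + n * p)) : d = p - 1 := by
  have hp2 : 2 ≤ p := hp.two_le
  have hq_le : q ≤ p - 1 := Nat.le_of_dvd (by omega) hqd
  have hqn : q * n < p := by
    have h1 : q * n ≤ q * v * n := by
      calc q * n = q * 1 * n := by rw [mul_one]
        _ ≤ q * v * n := Nat.mul_le_mul_right n (Nat.mul_le_mul_left q hv)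
    omega
  have hp2z : (2 : ℤ) ≤ p := by exact_mod_cast hp2
  have hqz : (q : ℤ) ≤ p - 1 := by
    have h0 : q + 1 ≤ p := by omega
    have h' : ((q + 1 : ℕ) : ℤ) ≤ p := by exact_mod_cast h0
    push_cast at h'
    linarith
  have hq2z : (2 : ℤ) ≤ q := by exact_mod_cast hq2
  have hnz : (1 : ℤ) ≤ n := by exact_mod_cast hn
  have hvz : (1 : ℤ) ≤ v := by exact_mod_cast hv
  have hqnz : (q : ℤ) * n ≤ p - 1 := by
    have h0 : q * n + 1 ≤ p := by omega
    have h' : ((q * n + 1 : ℕ) : ℤ) ≤ p := by exact_mod_cast h0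
    push_cast at h'
    linarith
  have hd0 : (0 : ℤ) ≤ d := by exact_mod_cast Nat.zero_le d
  obtain ⟨u, hu⟩ : (p : ℤ) ∣ (d : ℤ) - (-1) := Int.modEq_iff_dvd.mp hd1.symm
  have hu' : (d : ℤ) = p * u - 1 := by linarith
  have hu1 : 1 ≤ u := by
    by_contra hcon
    have hu0 : u ≤ 0 := by omega
    linarith [mul_nonneg (show (0 : ℤ) ≤ p by linarith) (show (0 : ℤ) ≤ -u by linarith)]
  by_cases hu_eq : u = 1
  · rw [hu_eq] at hu'
    have h0 : (d : ℤ) = ((p - 1 : ℕ) : ℤ) := by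
      rw [Nat.cast_sub (by omega : 1 ≤ p)]
      push_cast
      linarith
    exact_mod_cast h0
  exfalso
  have hu2 : 2 ≤ u := by omega
  obtain ⟨c, hc⟩ := hdvd
  have hcz : (q : ℤ) * (1 + n * p) = d * c := by exact_mod_cast hc
  have hc0 : (0 : ℤ) ≤ c := by exact_mod_cast Nat.zero_le c
  have hdge : 2 * (p : ℤ) - 1 ≤ d := by
    linarith [mul_nonneg (show (0 : ℤ) ≤ p by linarith) (show (0 : ℤ) ≤ u - 2 by linarith)]
  have hbound : (q : ℤ) * (1 + n * p) ≤ (p - 1) + (p - 1) * p := by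
    linarith [mul_nonneg (show (0 : ℤ) ≤ (p : ℤ) - 1 - q * n by linarith)
      (show (0 : ℤ) ≤ p by linarith)]
  have hcp : (c : ℤ) < p := by
    by_contra hcon
    have hcge : (p : ℤ) ≤ c := by linarith
    linarith [mul_nonneg (show (0 : ℤ) ≤ (d : ℤ) - (2 * p - 1) by linarith) hc0,
      mul_nonneg (show (0 : ℤ) ≤ 2 * (p : ℤ) - 1 by linarith)
        (show (0 : ℤ) ≤ (c : ℤ) - p by linarith),
      mul_nonneg (show (0 : ℤ) ≤ p by linarith) (show (0 : ℤ) ≤ (p : ℤ) - 2 by linarith)]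
  have hc1 : (1 : ℤ) ≤ c := by
    by_contra hcon
    have hc00 : (c : ℤ) = 0 := by omega
    rw [hc00, mul_zero] at hcz
    have hnp0 : (0 : ℤ) ≤ (n : ℤ) * p := by positivity
    have hpos : (0 : ℤ) < (q : ℤ) * (1 + n * p) := mul_pos (by linarith) (by linarith)
    linarith
  -- `c + q = p`
  have hsum : (c : ℤ) + q = p * (u * c - q * n) := by
    rw [hu'] at hcz
    linear_combination hcz
  have hm : u * (c : ℤ) - q * n = 1 := by
    have h3 : 0 < u * (c : ℤ) - q * n := by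
      by_contra hcon
      have h0 : u * (c : ℤ) - q * n ≤ 0 := by linarith
      linarith [mul_nonneg (show (0 : ℤ) ≤ p by linarith)
        (show (0 : ℤ) ≤ -(u * (c : ℤ) - q * n) by linarith)]
    have h4 : u * (c : ℤ) - q * n < 2 := by
      by_contra hcon
      have h0 : 2 ≤ u * (c : ℤ) - q * n := by linarith
      linarith [mul_nonneg (show (0 : ℤ) ≤ p by linarith)
        (show (0 : ℤ) ≤ u * (c : ℤ) - q * n - 2 by linarith)]
    omega
  have hcq : (c : ℤ) = p - q := by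
    rw [hm, mul_one] at hsum
    linarith
  -- `u * (p - q) = 1 + q * n`
  have hrel : u * ((p : ℤ) - q) = 1 + q * n := by
    rw [hcq] at hm
    linarith
  -- `p ≤ 2 q`
  have hp2q : (p : ℤ) ≤ 2 * q := by
    linarith [mul_nonneg (show (0 : ℤ) ≤ u - 2 by linarith)
      (show (0 : ℤ) ≤ (p : ℤ) - q by linarith)]
  -- `q = p - 1`
  obtain ⟨m', hm'⟩ := hqd
  have hm'z : (p : ℤ) - 1 = q * m' := by
    have h0 : ((p - 1 : ℕ) : ℤ) = ((q * m' : ℕ) : ℤ) := by exact_mod_cast hm'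
    rw [Nat.cast_sub (by omega : 1 ≤ p)] at h0
    push_cast at h0
    exact h0
  have hm'1 : (m' : ℤ) = 1 := by
    have h0 : (0 : ℤ) ≤ m' := by exact_mod_cast Nat.zero_le m'
    have h1 : (1 : ℤ) ≤ m' := by
      by_contra hcon
      have h00 : (m' : ℤ) = 0 := by omega
      rw [h00, mul_zero] at hm'z
      linarith
    have h2 : (m' : ℤ) < 2 := by
      by_contra hcon
      have h00 : (2 : ℤ) ≤ m' := by linarith
      linarith [mul_nonneg (show (0 : ℤ) ≤ q by linarith)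
        (show (0 : ℤ) ≤ (m' : ℤ) - 2 by linarith)]
    omega
  have hq_eq : (q : ℤ) = p - 1 := by
    rw [hm'1, mul_one] at hm'z
    linarith
  -- `n = 1`, `u = p`, `v = 1`
  have hn1 : (n : ℤ) = 1 := by
    rw [hq_eq] at hqnz
    have h0 : (n : ℤ) ≤ 1 := by
      by_contra hcon
      have h00 : (2 : ℤ) ≤ n := by omega
      linarith [mul_nonneg (show (0 : ℤ) ≤ (p : ℤ) - 1 by linarith)
        (show (0 : ℤ) ≤ (n : ℤ) - 2 by linarith)]
    linarith
  have hu_p : u = p := by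
    rw [hq_eq, hn1] at hrel
    linear_combination hrel
  have hv1 : (v : ℤ) = 1 := by
    have hltz : (q : ℤ) * v * n < p := by exact_mod_cast hlt
    rw [hq_eq, hn1] at hltz
    have h0 : (v : ℤ) ≤ 1 := by
      by_contra hcon
      have h00 : (2 : ℤ) ≤ v := by omega
      linarith [mul_nonneg (show (0 : ℤ) ≤ (p : ℤ) - 1 by linarith)
        (show (0 : ℤ) ≤ (v : ℤ) - 2 by linarith)]
    linarith
  have hsqz : (d : ℤ) ^ 2 < p * q * v * (1 + n * p) := by exact_mod_cast hsq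
  rw [hu', hu_p, hq_eq, hv1, hn1] at hsqz
  have hX : (p : ℤ) + 1 ≤ (p : ℤ) * p - 1 := by
    linarith [mul_nonneg (show (0 : ℤ) ≤ p by linarith) (show (0 : ℤ) ≤ (p : ℤ) - 2 by linarith)]
  linarith [mul_nonneg (show (0 : ℤ) ≤ (p : ℤ) * p - 1 by linarith)
    (show (0 : ℤ) ≤ (p : ℤ) * p - 1 - p by linarith)]

/-- Piece Na of CALL S0999. -/
theorem br_num_alpha (p q t a A B C W : ℕ) (ht : 2 ≤ t) (ha : 1 ≤ a) (hq : q = 1 + a * t)
    (hp : p = t * q + 1)
    (h1 : t * q ^ 2 = t + (1 + (t - 1) * p) * A + (p - 1) * B + q * C + p * W)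
    (h2 : t * q = t + t * A + W) : t = 2 := by
  have htz : (2 : ℤ) ≤ t := by exact_mod_cast ht
  have haz : (1 : ℤ) ≤ a := by exact_mod_cast ha
  have hqz : (q : ℤ) = 1 + a * t := by exact_mod_cast hq
  have hpz : (p : ℤ) = t * q + 1 := by exact_mod_cast hp
  have hp1 : 1 ≤ p := by omega
  have h1z : (t : ℤ) * q ^ 2 = t + (1 + (t - 1) * p) * A + (p - 1) * B + q * C + p * W := by
    have h := h1
    zify [show 1 ≤ t by omega, hp1] at h
    exact h
  have h2z : (t : ℤ) * q = t + t * A + W := by exact_mod_cast h2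
  have hA0 : (0 : ℤ) ≤ A := by exact_mod_cast Nat.zero_le A
  have hB0 : (0 : ℤ) ≤ B := by exact_mod_cast Nat.zero_le B
  have hC0 : (0 : ℤ) ≤ C := by exact_mod_cast Nat.zero_le C
  have hW0 : (0 : ℤ) ≤ W := by exact_mod_cast Nat.zero_le W
  have hq0 : (0 : ℤ) ≤ q := by exact_mod_cast Nat.zero_le q
  have hq3 : (3 : ℤ) ≤ q := by
    linarith [mul_nonneg (show (0 : ℤ) ≤ (a : ℤ) - 1 by linarith) (show (0 : ℤ) ≤ t by linarith)]
  have hpz1 : (1 : ℤ) ≤ p := by exact_mod_cast hp1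
  have hAle : (A : ℤ) ≤ q - 1 := by
    by_contra hcon
    have h0 : (q : ℤ) ≤ A := by linarith
    linarith [mul_nonneg (show (0 : ℤ) ≤ t by linarith) (show (0 : ℤ) ≤ (A : ℤ) - q by linarith)]
  have key : (t : ℤ) * q ^ 2 - t - (q - 1) * (1 + (t - 1) * p) =
      (p - 1) * B + q * C + (p - 1) * (q - 1 - A) := by
    linear_combination h1z - (p : ℤ) * h2z
  have hnn : (0 : ℤ) ≤ (t : ℤ) * q ^ 2 - t - (q - 1) * (1 + (t - 1) * p) := by
    rw [key]
    have e1 : (0 : ℤ) ≤ ((p : ℤ) - 1) * B := mul_nonneg (by linarith) hB0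
    have e2 : (0 : ℤ) ≤ (q : ℤ) * C := mul_nonneg hq0 hC0
    have e3 : (0 : ℤ) ≤ ((p : ℤ) - 1) * (q - 1 - A) := mul_nonneg (by linarith) (by linarith)
    linarith
  have e : (t : ℤ) * q ^ 2 - t - (q - 1) * (1 + (t - 1) * p) = ((q - 1) * t * q) * (2 - t) := by
    rw [hpz]
    ring
  rw [e] at hnn
  have hpos : (0 : ℤ) < ((q : ℤ) - 1) * t * q := by
    have e1 : (0 : ℤ) < (q : ℤ) - 1 := by linarith
    have e2 : (0 : ℤ) < (t : ℤ) := by linarith
    have e3 : (0 : ℤ) < (q : ℤ) := by linarith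
    exact mul_pos (mul_pos e1 e2) e3
  have hle : (0 : ℤ) ≤ 2 - (t : ℤ) := by
    by_contra hcon
    have h0 : (0 : ℤ) < (t : ℤ) - 2 := by linarith
    linarith [mul_pos hpos h0]
  have h0 : (t : ℤ) = 2 := by linarith
  exact_mod_cast h0

end Cfsg.Agent.Helper19
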