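import Mathlib
import Cfsg.Agent.Helper40.KGLDefs
import Cfsg.Agent.Helper40.KSLDefs

/-!
# CALL S2479, piece B14b (`bnd_le`) for helper40
-/

set_option autoImplicit false

namespace Cfsg.Agent.Helper19

open Polynomial Cfsg.Agent.Helper40.KGL Cfsg.Agent.Helper40.KSL
open scoped DirectSum
open Classical

universe u v

theorem ksl_phi_add {q : ℕ} (hq : 2 ≤ q) (k : ℕ) (hk : 1 ≤ k) :
    phi q k + q ^ (k - 1) = q ^ k := by
  unfold phi
  rw [if_neg (by omega)]
  have : q ^ (k - 1) ≤ q ^ k := Nat.pow_le_pow_right (by omega) (by omega)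
  omega

theorem ksl_cnt_one (q n : ℕ) : cnt q 1 n = phi q n := by
  show ∑ k ∈ Finset.range (n / (0 + 1) + 1), phi q k * cnt q 0 (n - (0 + 1) * k) = phi q n
  rw [Finset.sum_eq_single n]
  · simp [cnt]
  · intro k hk hkn
    have hk' : k < n + 1 := by simpa using hk
    have : n - k ≠ 0 := by omega
    simp [cnt, this]
  · intro h
    exact absurd (by simp) h

theorem ksl_cnt_two_zero (q : ℕ) : cnt q 2 0 = 1 := by
  show ∑ k ∈ Finset.range (0 / (1 + 1) + 1), phi q k * cnt q 1 (0 - (1 + 1) * k) = 1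
  simp [ksl_cnt_one, phi]

theorem ksl_cnt_two_three (q : ℕ) : cnt q 2 3 = phi q 3 + phi q 1 * phi q 1 := by
  show ∑ k ∈ Finset.range (3 / (1 + 1) + 1), phi q k * cnt q 1 (3 - (1 + 1) * k) = _
  have : 3 / (1 + 1) + 1 = 2 := by norm_num
  rw [this, Finset.sum_range_succ, Finset.sum_range_one, ksl_cnt_one, ksl_cnt_one]
  simp [phi]

theorem ksl_cnt_three_three (q : ℕ) :
    cnt q 3 3 = phi q 3 + phi q 1 * phi q 1 + phi q 1 := by
  show ∑ k ∈ Finset.range (3 / (2 + 1) + 1), phi q k * cnt q 2 (3 - (2 + 1) * k) = _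
  have : 3 / (2 + 1) + 1 = 2 := by norm_num
  rw [this, Finset.sum_range_succ, Finset.sum_range_one]
  have h0 : 3 - (2 + 1) * 0 = 3 := by norm_num
  have h1 : 3 - (2 + 1) * 1 = 0 := by norm_num
  rw [h0, h1, ksl_cnt_two_three, ksl_cnt_two_zero]
  simp [phi]

theorem bnd_le {q : ℕ} (hq : 2 ≤ q)
    (h4 : ∀ n : ℕ, 4 ≤ n → (q ^ n - 1) + ∑ c ∈ (Nat.gcd n (q - 1)).divisors.filter (fun c => 2 ≤ c),
      (c ^ 2 - 1) * (q ^ (n / c) - 1) ≤ (q - 1) * (q ^ (n - 1) + 3 * q ^ (n - 2)))
    (hcnt : ∀ m : ℕ, 1 ≤ m → cnt q m m + 1 ≤ q ^ m) :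
    (∀ n : ℕ, 3 ≤ n → bnd q n ≤ (q - 1) * (q ^ (n - 1) + 3 * q ^ (n - 2))) ∧
      2 * bnd q 2 ≤ 5 * ((q - 1) * q) := by
  obtain ⟨r, rfl⟩ : ∃ r, q = r + 2 := ⟨q - 2, by omega⟩
  have hq1 : r + 2 - 1 = r + 1 := rfl
  refine ⟨?_, ?_⟩
  · intro n hn
    rcases Nat.lt_or_ge n 4 with hlt | hge
    · -- n = 3
      have hn3 : n = 3 := by omega
      subst hn3
      have h33 : cnt (r + 2) 3 3 + (r + 2) = (r + 2) ^ 3 := by
        rw [ksl_cnt_three_three]
        have e3 := ksl_phi_add hq 3 (by norm_num)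
        have e1 := ksl_phi_add hq 1 (by norm_num)
        norm_num at e3 e1
        have e1' : phi (r + 2) 1 = r + 1 := by omega
        rw [e1']
        have : phi (r + 2) 3 = (r + 2) ^ 3 - (r + 2) ^ 2 := by omega
        have hle : (r + 2) ^ 2 ≤ (r + 2) ^ 3 := Nat.pow_le_pow_right (by omega) (by norm_num)
        zify [hle] at this ⊢
        rw [this]; ring
      have h11 : cnt (r + 2) 1 1 = r + 1 := by
        rw [ksl_cnt_one]
        have e1 := ksl_phi_add hq 1 (by norm_num)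
        norm_num at e1
        omega
      unfold bnd
      rw [hq1]
      have hg : Nat.gcd 3 (r + 1) = 1 ∨ Nat.gcd 3 (r + 1) = 3 :=
        (Nat.dvd_prime Nat.prime_three).1 (Nat.gcd_dvd_left 3 (r + 1))
      have e31 : 3 - 1 = 2 := rfl
      have e32 : 3 - 2 = 1 := rfl
      rw [e31, e32]
      rcases hg with hg | hg
      · rw [hg]
        have : (Nat.divisors 1).filter (fun c => 2 ≤ c) = ∅ := by decide
        rw [this, Finset.sum_empty]
        nlinarith [sq_nonneg r]
      · rw [hg]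
        have : (Nat.divisors 3).filter (fun c => 2 ≤ c) = {3} := by decide
        rw [this, Finset.sum_singleton]
        have h3 : 3 ∣ r + 1 := by
          have := Nat.gcd_dvd_right 3 (r + 1)
          rwa [hg] at this
        obtain ⟨s, hs⟩ : ∃ s, r = s + 2 := by
          obtain ⟨t, ht⟩ := h3
          exact ⟨r - 2, by omega⟩
        subst hs
        have e33 : 3 / 3 = 1 := rfl
        rw [e33, h11]
        norm_num
        nlinarith [sq_nonneg s]
    · -- n ≥ 4
      refine le_trans ?_ (h4 n hge)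
      unfold bnd
      refine add_le_add ?_ ?_
      · have := hcnt n (by omega)
        omega
      · refine Finset.sum_le_sum ?_
        intro c hc
        rw [Finset.mem_filter, Nat.mem_divisors] at hc
        have hcn : c ∣ n := hc.1.1.trans (Nat.gcd_dvd_left _ _)
        have hcle : c ≤ n := Nat.le_of_dvd (by omega) hcn
        have hpos : 1 ≤ n / c := Nat.div_pos hcle (by omega)
        have := hcnt (n / c) hpos
        exact Nat.mul_le_mul_left _ (by omega)
  · have h22 : cnt (r + 2) 2 2 + 1 ≤ (r + 2) ^ 2 := hcnt 2 (by norm_num)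
    have h11 : cnt (r + 2) 1 1 + 1 ≤ (r + 2) ^ 1 := hcnt 1 (by norm_num)
    unfold bnd
    rw [hq1]
    have hg : Nat.gcd 2 (r + 1) = 1 ∨ Nat.gcd 2 (r + 1) = 2 :=
      (Nat.dvd_prime Nat.prime_two).1 (Nat.gcd_dvd_left 2 (r + 1))
    rcases hg with hg | hg
    · rw [hg]
      have : (Nat.divisors 1).filter (fun c => 2 ≤ c) = ∅ := by decide
      rw [this, Finset.sum_empty]
      nlinarith [sq_nonneg r]
    · rw [hg]
      have : (Nat.divisors 2).filter (fun c => 2 ≤ c) = {2} := by decide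
      rw [this, Finset.sum_singleton]
      have h2 : 2 ∣ r + 1 := by
        have := Nat.gcd_dvd_right 2 (r + 1)
        rwa [hg] at this
      obtain ⟨s, hs⟩ : ∃ s, r = s + 1 := by
        obtain ⟨t, ht⟩ := h2
        exact ⟨r - 1, by omega⟩
      subst hs
      have e22 : 2 / 2 = 1 := rfl
      rw [e22]
      norm_num
      nlinarith [sq_nonneg s]

end Cfsg.Agent.Helper19
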