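import Cfsg.Agent.Helper71.McLA

/-!
# Piece I2 of S5075 (McLaughlin), abstract form

`all_centers_aux` is the statement of piece I2 with the facts of pieces B, H, I that it uses
taken as hypotheses.
-/

set_option autoImplicit false

namespace Cfsg.Agent.Helper19.McL

open Module Cfsg.Agent.Helper71.McL

variable {F V : Type*} [Field F] [AddCommGroup V] [Module F V]

/-- Every nonzero vector of the plane of an opposite pair is a centre. -/
theorem pair_isCenter (S : TSys F V) {φ ψ : Dual F V} {v w : V} (h1 : S.Θ φ v) (h2 : S.Θ ψ w)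
    (hφw : φ w ≠ 0) (hψv : ψ v ≠ 0) {x : V} (hx : x ∈ Submodule.span F {v, w}) (hx0 : x ≠ 0) :
    S.IsCenter x := by
  have hφv : φ v = 0 := S.vanish h1
  have hψw : ψ w = 0 := S.vanish h2
  obtain ⟨s, t, rfl⟩ := Submodule.mem_span_pair.mp hx
  refine ⟨hx0, (-(s * ψ v)) • φ + (t * φ w) • ψ, ?_, ?_⟩
  · intro h
    have e1 := LinearMap.congr_fun h v
    have e2 := LinearMap.congr_fun h w
    simp only [LinearMap.add_apply, LinearMap.smul_apply, smul_eq_mul, hφv, hψw, mul_zero,
      zero_add, add_zero, LinearMap.zero_apply] at e1 e2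
    have ht : t = 0 := by
      rcases mul_eq_zero.mp e1 with h' | h'
      · exact (mul_eq_zero.mp h').resolve_right hφw
      · exact absurd h' hψv
    have hs : s = 0 := by
      rcases mul_eq_zero.mp e2 with h' | h'
      · exact (mul_eq_zero.mp (neg_eq_zero.mp h')).resolve_right hψv
      · exact absurd h' hφw
    apply hx0
    rw [hs, ht, zero_smul, zero_smul, add_zero]
  · apply sl2 S h1 h2 hφw hψv
    simp only [LinearMap.add_apply, LinearMap.smul_apply, map_add, map_smul, smul_eq_mul, hφv,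
      hψw, mul_zero, zero_add, add_zero]
    ring

/-- The sum of two centres is zero or a centre (thin case), with the facts of pieces B, H, I as
hypotheses. -/
theorem isCenter_add_aux (S : TSys F V) (W : Submodule F V) (hG : S.Good W) (hsym : S.Sym)
    (hexopp : ∀ {v : V}, S.IsCenter v → ∃ w, S.IsCenter w ∧ S.Opp v w)
    (hspade : ∀ {φ ψ : Dual F V} {v w : V}, S.Θ φ v → S.Θ ψ w → φ w ≠ 0 → ψ v ≠ 0 →
      ∀ {x y : V}, x ∈ Submodule.span F {v, w} → x ≠ 0 →
        y ∈ LinearMap.ker φ ⊓ LinearMap.ker ψ → y ≠ 0 → ∀ χ : Dual F V, S.Θ χ (x + y) →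
        ∃ χP χK : Dual F V, χ = χP + χK ∧ S.Θ χP x ∧ S.Θ χK y)
    (hclub : ∀ {φ ψ : Dual F V} {v w : V}, S.Θ φ v → S.Θ ψ w → φ w ≠ 0 → ψ v ≠ 0 →
      (Submodule.span F {v, w} = W ∨ ∀ y ∈ LinearMap.ker φ ⊓ LinearMap.ker ψ, S.IsCenter y →
        ∀ x ∈ Submodule.span F {v, w}, x ≠ 0 → S.IsCenter (x + y)))
    {a b : V} (ha : S.IsCenter a) (hb : S.IsCenter b) (hab : a + b ≠ 0) :
    S.IsCenter (a + b) := by
  have hmemW : ∀ {x : V}, S.IsCenter x → x ∈ W := fun hx => by
    obtain ⟨hx0, φ, hφ0, hφ⟩ := hx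
    exact hG.center_mem φ _ hφ hφ0 hx0
  by_cases hopp : S.Opp a b
  · obtain ⟨φa, hφa, hφab⟩ := hopp
    obtain ⟨φb, hφb, hφba⟩ := hsym a b ha hb ⟨φa, hφa, hφab⟩
    exact pair_isCenter S hφa hφb hφab hφba
      (Submodule.add_mem _ (Submodule.subset_span (by simp)) (Submodule.subset_span (by simp))) hab
  · obtain ⟨w, hcw, φ, hφ, hφw⟩ := hexopp ha
    obtain ⟨ψ, hψ, hψa⟩ := hsym a w ha hcw ⟨φ, hφ, hφw⟩
    have hφb : φ b = 0 := by
      by_contra h
      exact hopp ⟨φ, hφ, h⟩
    have hφa : φ a = 0 := S.vanish hφ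
    obtain ⟨c, hc⟩ : ∃ c : F, c = ψ b / ψ a := ⟨_, rfl⟩
    obtain ⟨y, hy⟩ : ∃ y : V, y = b - c • a := ⟨_, rfl⟩
    have hyK : y ∈ LinearMap.ker φ ⊓ LinearMap.ker ψ := by
      refine ⟨?_, ?_⟩
      · simp only [SetLike.mem_coe, LinearMap.mem_ker, hy, map_sub, map_smul, smul_eq_mul, hφa,
          hφb, mul_zero, sub_zero]
      · simp only [SetLike.mem_coe, LinearMap.mem_ker, hy, map_sub, map_smul, smul_eq_mul, hc]
        field_simp
        ring
    have hby : b = c • a + y := by rw [hy]; abel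
    have haP : a ∈ Submodule.span F {a, w} := Submodule.subset_span (by simp)
    have haby : a + b = (1 + c) • a + y := by rw [hy, add_smul, one_smul]; abel
    by_cases hy0 : y = 0
    · rw [haby, hy0, add_zero] at hab ⊢
      obtain ⟨ha0, χ, hχ0, hχ⟩ := ha
      exact ⟨hab, χ, hχ0, S.smul_right _ hχ⟩
    · have hcy : S.IsCenter y := by
        by_cases hc0 : c = 0
        · have e : y = b := by rw [hy, hc0, zero_smul, sub_zero]
          rw [e]
          exact hb
        · obtain ⟨hb0, χ, hχ0, hχ⟩ := hb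
          have hχ' : S.Θ χ (c • a + y) := by rw [← hby]; exact hχ
          obtain ⟨χP, χK, hsum, hχP, hχK⟩ :=
            hspade hφ hψ hφw hψa (Submodule.smul_mem _ c haP) (smul_ne_zero hc0 ha.1) hyK hy0 χ hχ'
          by_cases hK0 : χK = 0
          · rw [hK0, add_zero] at hsum
            rw [← hsum] at hχP
            have h3 := S.add_right hχ' (S.smul_right (-1) hχP)
            have e : c • a + y + (-1 : F) • c • a = y := by
              rw [neg_smul, one_smul]; abel
            rw [e] at h3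
            exact ⟨hy0, χ, hχ0, h3⟩
          · exact ⟨hy0, χK, hK0, hχK⟩
      rcases hclub hφ hψ hφw hψa with hPW | hcl
      · have habW : a + b ∈ W := W.add_mem (hmemW ha) (hmemW hb)
        rw [← hPW] at habW
        exact pair_isCenter S hφ hψ hφw hψa habW hab
      · by_cases h1c : 1 + c = 0
        · rw [haby, h1c, zero_smul, zero_add]
          exact hcy
        · rw [haby]
          exact hcl y hyK hcy _ (Submodule.smul_mem _ _ haP) (smul_ne_zero h1c ha.1)

/-- Piece I2 with the facts of pieces B (`exists_opp`), H (`spade`), I (`club`) as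
hypotheses. -/
theorem all_centers_aux (S : TSys F V) (W : Submodule F V) (hG : S.Good W) (hsym : S.Sym)
    (hexopp : ∀ {v : V}, S.IsCenter v → ∃ w, S.IsCenter w ∧ S.Opp v w)
    (hspade : ∀ {φ ψ : Dual F V} {v w : V}, S.Θ φ v → S.Θ ψ w → φ w ≠ 0 → ψ v ≠ 0 →
      ∀ {x y : V}, x ∈ Submodule.span F {v, w} → x ≠ 0 →
        y ∈ LinearMap.ker φ ⊓ LinearMap.ker ψ → y ≠ 0 → ∀ χ : Dual F V, S.Θ χ (x + y) →
        ∃ χP χK : Dual F V, χ = χP + χK ∧ S.Θ χP x ∧ S.Θ χK y)
    (hclub : ∀ {φ ψ : Dual F V} {v w : V}, S.Θ φ v → S.Θ ψ w → φ w ≠ 0 → ψ v ≠ 0 →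
      (Submodule.span F {v, w} = W ∨ ∀ y ∈ LinearMap.ker φ ⊓ LinearMap.ker ψ, S.IsCenter y →
        ∀ x ∈ Submodule.span F {v, w}, x ≠ 0 → S.IsCenter (x + y))) :
    ∀ x ∈ W, x ≠ 0 → S.IsCenter x := by
  have hmemW : ∀ {x : V}, S.IsCenter x → x ∈ W := fun hx => by
    obtain ⟨hx0, φ, hφ0, hφ⟩ := hx
    exact hG.center_mem φ _ hφ hφ0 hx0
  let C0 : Submodule F V :=
    { carrier := {x | x = 0 ∨ S.IsCenter x}
      zero_mem' := Or.inl rfl
      add_mem' := by
        rintro a b (rfl | ha) (rfl | hb)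
        · left; rw [add_zero]
        · right; rw [zero_add]; exact hb
        · right; rw [add_zero]; exact ha
        · by_cases hab : a + b = 0
          · left; exact hab
          · right; exact isCenter_add_aux S W hG hsym hexopp hspade hclub ha hb hab
      smul_mem' := by
        rintro c x (rfl | hx)
        · left; rw [smul_zero]
        · by_cases hc : c = 0
          · left; rw [hc, zero_smul]
          · right
            obtain ⟨hx0, φ, hφ0, hφ⟩ := hx
            exact ⟨smul_ne_zero hc hx0, φ, hφ0, S.smul_right c hφ⟩ }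
  have hC0W : C0 ≤ W := by
    rintro x (rfl | hx)
    · exact W.zero_mem
    · exact hmemW hx
  have hInv : S.Inv C0 := by
    intro φ v h x hx
    have hv : φ x • v ∈ C0 := by
      by_cases hφ0 : φ = 0
      · rw [hφ0, LinearMap.zero_apply, zero_smul]
        exact C0.zero_mem
      by_cases hv0 : v = 0
      · rw [hv0, smul_zero]
        exact C0.zero_mem
      exact C0.smul_mem _ (Or.inr ⟨hv0, φ, hφ0, h⟩)
    exact C0.add_mem hx hv
  obtain ⟨φ, v, h, hφ0, hv0⟩ := hG.ne
  rcases hG.min C0 hC0W hInv with hEq | hle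
  · intro x hx hx0
    rw [← hEq] at hx
    rcases hx with h' | h'
    · exact absurd h' hx0
    · exact h'
  · exact absurd (hle (Or.inr ⟨hv0, φ, hφ0, h⟩ : v ∈ C0)) (hG.nc φ v h hφ0 hv0)

end Cfsg.Agent.Helper19.McL
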