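import Cfsg.Agent.Helper19.McLJaux
import Cfsg.Agent.Helper98.McLB
import Cfsg.Agent.Helper80.McLH

/-!
# Piece J of S5075 (McLaughlin): `L (u + v) ≤ L u + L v` in the thin case
-/

set_option autoImplicit false

namespace Cfsg.Agent.Helper19.McL

open Module Cfsg.Agent.Helper71.McL

variable {F V : Type*} [Field F] [AddCommGroup V] [Module F V]

/-- Piece J of CALL S5075: in the thin case with all nonzero vectors of `W` centres, every
functional with centre `u + v` is a sum of one with centre `u` and one with centre `v`. -/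
theorem L_add_le [Module.Finite F V] (S : TSys F V) (h2 : (2 : F) ≠ 0) (W : Submodule F V) (hG : S.Good W) (hT : S.Thin) (hsym : S.Sym) (hall : ∀ x ∈ W, x ≠ 0 → S.IsCenter x) {u v : V} (hu : u ∈ W) (hv : v ∈ W) (huv : u + v ≠ 0) (χ : Dual F V) (hχ : S.Θ χ (u + v)) : ∃ φ ψ : Dual F V, S.Θ φ u ∧ S.Θ ψ v ∧ χ = φ + ψ := by
  have hexopp : ∀ {v : V}, S.IsCenter v → ∃ w, S.IsCenter w ∧ S.Opp v w :=
    fun hv => Cfsg.Agent.Helper98.McL.exists_opp S W hG hv
  refine L_add_le_aux S W hT hsym hall hexopp ?_ ?_ ?_ hu hv huv χ hχ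
  · intro φ ψ v w h1 h2' hφw hψv
    exact (Cfsg.Agent.Helper80.McL.plane_struct S hT h1 h2' hφw hψv).2
  · intro φ v v' h h' hφ hv
    exact Cfsg.Agent.Helper80.McL.thin_dual_of_opp S hT hsym (fun u hu => hexopp hu) h h' hφ hv
  · intro φ ψ v w h1 hw hφw hψv x y hx hx0 hy hy0 χ hχ
    obtain ⟨χP, χK, e, hP, hK, -, -⟩ :=
      Cfsg.Agent.Helper80.McL.spade S h2 hT hsym h1 hw hφw hψv hx hx0 hy hy0 χ hχ
    exact ⟨χP, χK, e, hP, hK⟩

end Cfsg.Agent.Helper19.McL
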