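import Cfsg.Agent.Helper71.McLA

/-!
# Piece J of S5075 (McLaughlin), abstract form

`L_add_le_aux` is the statement of piece J with the facts of pieces B, G, H that it uses taken
as hypotheses.
-/

set_option autoImplicit false

namespace Cfsg.Agent.Helper19.McL

open Module Cfsg.Agent.Helper71.McL

variable {F V : Type*} [Field F] [AddCommGroup V] [Module F V]

/-- Piece J with the facts from pieces B (`exists_opp`), G (`plane_struct`, `thin_dual`) and
H (`spade`) as hypotheses. -/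
theorem L_add_le_aux (S : TSys F V) (W : Submodule F V)
    (hT : S.Thin) (hsym : S.Sym)
    (hall : ∀ x ∈ W, x ≠ 0 → S.IsCenter x)
    (hexopp : ∀ {v : V}, S.IsCenter v → ∃ w, S.IsCenter w ∧ S.Opp v w)
    (hplane : ∀ {φ ψ : Dual F V} {v w : V}, S.Θ φ v → S.Θ ψ w → φ w ≠ 0 → ψ v ≠ 0 →
      ∀ x ∈ Submodule.span F {v, w}, x ≠ 0 → ∀ χ : Dual F V,
        (S.Θ χ x ↔ χ x = 0 ∧ ∀ k ∈ LinearMap.ker φ ⊓ LinearMap.ker ψ, χ k = 0))
    (hdual : ∀ {φ : Dual F V} {v v' : V}, S.Θ φ v → S.Θ φ v' → φ ≠ 0 → v ≠ 0 →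
      ∃ c : F, v' = c • v)
    (hspade : ∀ {φ ψ : Dual F V} {v w : V}, S.Θ φ v → S.Θ ψ w → φ w ≠ 0 → ψ v ≠ 0 →
      ∀ {x y : V}, x ∈ Submodule.span F {v, w} → x ≠ 0 →
        y ∈ LinearMap.ker φ ⊓ LinearMap.ker ψ → y ≠ 0 → ∀ χ : Dual F V, S.Θ χ (x + y) →
        ∃ χP χK : Dual F V, χ = χP + χK ∧ S.Θ χP x ∧ S.Θ χK y)
    {u v : V} (hu : u ∈ W) (hv : v ∈ W) (huv : u + v ≠ 0) (χ : Dual F V)
    (hχ : S.Θ χ (u + v)) :
    ∃ φ ψ : Dual F V, S.Θ φ u ∧ S.Θ ψ v ∧ χ = φ + ψ := by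
  by_cases hu0 : u = 0
  · subst hu0
    rw [zero_add] at hχ
    exact ⟨0, χ, S.zero_left 0, hχ, (zero_add χ).symm⟩
  by_cases hv0 : v = 0
  · subst hv0
    rw [add_zero] at hχ
    exact ⟨χ, 0, hχ, S.zero_left 0, (add_zero χ).symm⟩
  by_cases hdep : ∃ c : F, v = c • u
  · obtain ⟨c, rfl⟩ := hdep
    have e : u + c • u = (1 + c) • u := by rw [add_smul, one_smul]
    have h1c : (1 + c) ≠ 0 := by
      intro h
      apply huv
      rw [e, h, zero_smul]
    rw [e] at hχ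
    have h3 := S.smul_right (1 + c)⁻¹ hχ
    rw [smul_smul, inv_mul_cancel₀ h1c, one_smul] at h3
    exact ⟨χ, 0, h3, S.zero_left _, (add_zero χ).symm⟩
  have hdep' : ∀ c : F, v ≠ c • u := fun c h => hdep ⟨c, h⟩
  have hcu : S.IsCenter u := hall u hu hu0
  have hcv : S.IsCenter v := hall v hv hv0
  by_cases hopp : S.Opp u v
  · obtain ⟨φu, hφu, hφuv⟩ := hopp
    obtain ⟨φv, hφv, hφvu⟩ := hsym u v hcu hcv ⟨φu, hφu, hφuv⟩
    have hmem : u + v ∈ Submodule.span F {u, v} :=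
      Submodule.add_mem _ (Submodule.subset_span (by simp)) (Submodule.subset_span (by simp))
    have hK := ((hplane hφu hφv hφuv hφvu (u + v) hmem huv χ).mp hχ).2
    have hφuu : φu u = 0 := S.vanish hφu
    have hφvv : φv v = 0 := S.vanish hφv
    refine ⟨(χ v / φu v) • φu, (χ u / φv u) • φv, S.smul_left _ hφu, S.smul_left _ hφv, ?_⟩
    refine LinearMap.ext fun t => ?_
    have hrest : t - (φv t / φv u) • u - (φu t / φu v) • v ∈
        LinearMap.ker φu ⊓ LinearMap.ker φv := by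
      refine ⟨?_, ?_⟩
      · simp only [SetLike.mem_coe, LinearMap.mem_ker, map_sub, map_smul, smul_eq_mul, hφuu,
          mul_zero, sub_zero]
        field_simp
        ring
      · simp only [SetLike.mem_coe, LinearMap.mem_ker, map_sub, map_smul, smul_eq_mul, hφvv,
          mul_zero, sub_zero]
        field_simp
        ring
    have h0 := hK _ hrest
    simp only [map_sub, map_smul, smul_eq_mul] at h0
    simp only [LinearMap.add_apply, LinearMap.smul_apply, smul_eq_mul]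
    field_simp at h0 ⊢
    linear_combination h0
  · obtain ⟨w, hcw, φu, hφu, hφuw⟩ := hexopp hcu
    obtain ⟨ψ, hψ, hψu⟩ := hsym u w hcu hcw ⟨φu, hφu, hφuw⟩
    have hφuv : φu v = 0 := by
      by_contra h
      exact hopp ⟨φu, hφu, h⟩
    have hφuu : φu u = 0 := S.vanish hφu
    obtain ⟨c, hc⟩ : ∃ c : F, c = ψ v / ψ u := ⟨_, rfl⟩
    obtain ⟨y, hy⟩ : ∃ y : V, y = v - c • u := ⟨_, rfl⟩
    have hyK : y ∈ LinearMap.ker φu ⊓ LinearMap.ker ψ := by
      refine ⟨?_, ?_⟩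
      · simp only [SetLike.mem_coe, LinearMap.mem_ker, hy, map_sub, map_smul, smul_eq_mul, hφuu,
          hφuv, mul_zero, sub_zero]
      · simp only [SetLike.mem_coe, LinearMap.mem_ker, hy, map_sub, map_smul, smul_eq_mul, hc]
        field_simp
        ring
    have hy0 : y ≠ 0 := by
      intro h
      rw [hy] at h
      exact hdep' c (sub_eq_zero.mp h)
    have hvy : v = c • u + y := by rw [hy]; abel
    have huP : u ∈ Submodule.span F {u, w} := Submodule.subset_span (by simp)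
    have star : c ≠ 0 → ∀ χ' : Dual F V, S.Θ χ' y →
        ∃ φ' ψ' : Dual F V, S.Θ φ' u ∧ S.Θ ψ' v ∧ χ' = φ' + ψ' := by
      intro hc0 χ' hχ'
      obtain ⟨-, ξ, hξ0, hξ⟩ := hcv
      have hcu0 : c • u ≠ 0 := smul_ne_zero hc0 hu0
      have hξ' : S.Θ ξ (c • u + y) := by rw [← hvy]; exact hξ
      obtain ⟨ξP, ξK, hsum, hξP, hξK⟩ :=
        hspade hφu hψ hφuw hψu (Submodule.smul_mem _ c huP) hcu0 hyK hy0 ξ hξ'
      have hξPu : S.Θ ξP u := by
        have h3 := S.smul_right c⁻¹ hξP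
        rwa [smul_smul, inv_mul_cancel₀ hc0, one_smul] at h3
      have hξK0 : ξK ≠ 0 := by
        intro h
        rw [h, add_zero] at hsum
        rw [← hsum] at hξP
        obtain ⟨d, hd⟩ := hdual hξP hξ hξ0 hcu0
        exact hdep' (d * c) (by rw [hd, smul_smul])
      obtain ⟨a, ha⟩ := hT y ξK χ' hξK hχ' hξK0 hy0
      refine ⟨(-a) • ξP, a • ξ, S.smul_left _ hξPu, S.smul_left _ hξ, ?_⟩
      rw [ha, hsum]
      module
    by_cases hc0 : c = 0
    · have hvy' : v = y := by rw [hvy, hc0, zero_smul, zero_add]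
      have hχ' : S.Θ χ (u + y) := by rw [← hvy']; exact hχ
      obtain ⟨χP, χK, hsum, hχP, hχK⟩ := hspade hφu hψ hφuw hψu huP hu0 hyK hy0 χ hχ'
      exact ⟨χP, χK, hχP, by rw [hvy']; exact hχK, hsum⟩
    · have huvy : u + v = (1 + c) • u + y := by rw [hy, add_smul, one_smul]; abel
      by_cases h1c : 1 + c = 0
      · have hχy : S.Θ χ y := by
          rw [huvy, h1c, zero_smul, zero_add] at hχ
          exact hχ
        exact star hc0 χ hχy
      · have hχ' : S.Θ χ ((1 + c) • u + y) := by rw [← huvy]; exact hχ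
        obtain ⟨χP, χK, hsum, hχP, hχK⟩ :=
          hspade hφu hψ hφuw hψu (Submodule.smul_mem _ _ huP) (smul_ne_zero h1c hu0) hyK hy0 χ hχ'
        have hχPu : S.Θ χP u := by
          have h3 := S.smul_right (1 + c)⁻¹ hχP
          rwa [smul_smul, inv_mul_cancel₀ h1c, one_smul] at h3
        obtain ⟨φ', ψ', hφ', hψ', hs'⟩ := star hc0 χK hχK
        exact ⟨χP + φ', ψ', S.add_left hχPu hφ', hψ', by rw [hsum, hs', add_assoc]⟩

end Cfsg.Agent.Helper19.McL
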