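import Cfsg.Agent.Helper71.McLGDefs
import Cfsg.Agent.Helper71.McLA

/-!
# Piece O of S5075 (McLaughlin): the centre dichotomy for an invariant subspace
-/

set_option autoImplicit false

namespace Cfsg.Agent.Helper19.McL

open Module Cfsg.Agent.Helper71.McL

variable {p : ℕ} [Fact p.Prime] {V : Type*} [AddCommGroup V] [Module (ZMod p) V]

/-- Piece O of CALL S5075: a transvection of `H` either has its centre in the invariant subspace
`W` (and then lies in `HW H W`), or its centre is fixed by `HW H W` and its functional vanishes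
on `W`. -/
theorem tv_centre_cases (H : Subgroup (V ≃ₗ[ZMod p] V))
    (hunip : ∀ U : Submodule (ZMod p) V, InvG H U → ∀ g ∈ H, (∀ x : V, g x - x ∈ U) →
      (∀ x ∈ U, g x = x) → g = 1)
    (W : Submodule (ZMod p) V) (hW : InvG H W) (S : TSys (ZMod p) V)
    (hS : ∀ (φ : Dual (ZMod p) V) (v : V), S.Θ φ v ↔ TV H φ v)
    (φ : Dual (ZMod p) V) (v : V) (h : TV H φ v) (hφ : φ ≠ 0) (hv : v ≠ 0) :
    (v ∈ W ∧ TV (HW H W) φ v) ∨ (v ∈ FixG (HW H W) ∧ ∀ x ∈ W, φ x = 0) := by
  obtain ⟨hφv, g, hg, hgx⟩ := h
  by_cases hvW : v ∈ W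
  · left
    exact ⟨hvW, hφv, g, Subgroup.subset_closure ⟨hg, φ, v, hvW, hφv, hgx⟩, hgx⟩
  · right
    have hφW : ∀ x ∈ W, φ x = 0 := by
      intro x hx
      by_contra hne
      apply hvW
      have h1 : g x - x ∈ W := W.sub_mem (hW g hg x hx) hx
      rw [hgx x, add_sub_cancel_left] at h1
      have h2 := W.smul_mem (φ x)⁻¹ h1
      rwa [smul_smul, inv_mul_cancel₀ hne, one_smul] at h2
    refine ⟨?_, hφW⟩
    rw [mem_FixG]
    intro k hk
    induction hk using Subgroup.closure_induction with
    | mem k hk =>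
      obtain ⟨hkH, ψ, w, hwW, hψw, hkx⟩ := hk
      rw [hkx v]
      by_cases hz : ψ v • w = 0
      · rw [hz, add_zero]
      · exfalso
        have hψv : ψ v ≠ 0 := fun h0 => hz (by rw [h0, zero_smul])
        have hw0 : w ≠ 0 := fun h0 => hz (by rw [h0, smul_zero])
        have h1 : S.Θ φ v := (hS φ v).mpr ⟨hφv, g, hg, hgx⟩
        have h2 : S.Θ ψ w := (hS ψ w).mpr ⟨hψw, k, hkH, hkx⟩
        obtain ⟨-, g', hg', hg'x⟩ := (hS φ w).mp (lemA S h1 h2 (hφW w hwW) hψv)
        have h4 : g' = 1 := by
          apply hunip W hW g' hg'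
          · intro x
            rw [hg'x x, add_sub_cancel_left]
            exact W.smul_mem _ hwW
          · intro x hx
            rw [hg'x x, hφW x hx, zero_smul, add_zero]
        apply hφ
        refine LinearMap.ext fun x => ?_
        have h5 := hg'x x
        rw [h4] at h5
        have h5' : x = x + φ x • w := h5
        have h6 : φ x • w = 0 := by
          have h7 : x + φ x • w = x + 0 := by rw [add_zero]; exact h5'.symm
          exact add_left_cancel h7
        rcases smul_eq_zero.mp h6 with h7 | h7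
        · rw [h7]; rfl
        · exact absurd h7 hw0
    | one => rfl
    | mul a b _ _ iha ihb => rw [LinearEquiv.mul_apply, ihb, iha]
    | inv a _ iha =>
      calc a⁻¹ v = a⁻¹ (a v) := by rw [iha]
        _ = v := a.symm_apply_apply v

end Cfsg.Agent.Helper19.McL
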