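import Mathlib
set_option autoImplicit false

/-!
# Pieces DET2 and DET3 of CALL S0978 (helper8): determinants of complex matrices of order 2 and 3
from their traces
-/

namespace Cfsg.Agent.Helper19

/-- an eigenvector for every root of the characteristic polynomial -/
theorem o5040_root_eigen {n : ℕ} (M : Matrix (Fin n) (Fin n) ℂ) (r : ℂ)
    (hr : r ∈ M.charpoly.roots) : ∃ v : Fin n → ℂ, v ≠ 0 ∧ M.mulVec v = r • v := by
  have h1 : M.charpoly.eval r = 0 := (Polynomial.mem_roots'.mp hr).2
  rw [Matrix.eval_charpoly] at h1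
  obtain ⟨v, hv, hv0⟩ := Matrix.exists_mulVec_eq_zero_iff.mpr h1
  refine ⟨v, hv, ?_⟩
  rw [Matrix.sub_mulVec] at hv0
  have h2 : (Matrix.scalar (Fin n) r).mulVec v = r • v := by
    rw [Matrix.scalar_apply, ← Matrix.smul_one_eq_diagonal, Matrix.smul_mulVec, Matrix.one_mulVec]
  rw [h2] at hv0
  exact (sub_eq_zero.mp hv0).symm

theorem o5040_card_roots {n : ℕ} (M : Matrix (Fin n) (Fin n) ℂ) :
    Multiset.card M.charpoly.roots = n := by
  rw [IsAlgClosed.card_roots_eq_natDegree, Matrix.charpoly_natDegree_eq_dim, Fintype.card_fin]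

/-- multisets of signs -/
theorem o5040_signs (s : Multiset ℂ) (hs : ∀ r ∈ s, r = 1 ∨ r = -1) :
    ∃ a b : ℕ, Multiset.card s = a + b ∧ s.sum = (a : ℂ) - (b : ℂ) ∧ s.prod = (-1) ^ b := by
  induction s using Multiset.induction with
  | empty => exact ⟨0, 0, by simp, by simp, by simp⟩
  | cons x s ih =>
    obtain ⟨a, b, h1, h2, h3⟩ := ih (fun r hr => hs r (Multiset.mem_cons_of_mem hr))
    rcases hs x (Multiset.mem_cons_self x s) with hx | hx
    · refine ⟨a + 1, b, ?_, ?_, ?_⟩
      · rw [Multiset.card_cons, h1]; ring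
      · rw [Multiset.sum_cons, h2, hx]; push_cast; ring
      · rw [Multiset.prod_cons, h3, hx, one_mul]
    · refine ⟨a, b + 1, ?_, ?_, ?_⟩
      · rw [Multiset.card_cons, h1]; ring
      · rw [Multiset.sum_cons, h2, hx]; push_cast; ring
      · rw [Multiset.prod_cons, h3, hx, pow_succ]; ring

/-- PIECE DET2 (Mathlib only): determinant of an involutory matrix from its trace. -/
theorem o5040_det_invol {n : ℕ} (M : Matrix (Fin n) (Fin n) ℂ) (hM : M * M = 1) (k : ℕ)
    (htr : M.trace = (n : ℂ) - 2 * (k : ℂ)) : M.det = (-1) ^ k := by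
  have hroots : ∀ r ∈ M.charpoly.roots, r = 1 ∨ r = -1 := by
    intro r hr
    obtain ⟨v, hv, hMv⟩ := o5040_root_eigen M r hr
    have h1 : (M * M).mulVec v = (r * r) • v := by
      rw [← Matrix.mulVec_mulVec, hMv, Matrix.mulVec_smul, hMv, smul_smul]
    rw [hM, Matrix.one_mulVec] at h1
    have h2 : (r * r - 1) • v = 0 := by
      rw [sub_smul, one_smul, ← h1, sub_self]
    rcases smul_eq_zero.mp h2 with h3 | h3
    · have h4 : (r - 1) * (r + 1) = 0 := by linear_combination h3
      rcases mul_eq_zero.mp h4 with h5 | h5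
      · left; linear_combination h5
      · right; linear_combination h5
    · exact absurd h3 hv
  obtain ⟨a, b, h1, h2, h3⟩ := o5040_signs _ hroots
  rw [o5040_card_roots] at h1
  rw [← Matrix.trace_eq_sum_roots_charpoly, htr] at h2
  rw [← Matrix.det_eq_prod_roots_charpoly] at h3
  have h4 : (b : ℂ) = (k : ℂ) := by
    have h5 : (n : ℂ) = (a : ℂ) + (b : ℂ) := by exact_mod_cast h1
    rw [h5] at h2
    linear_combination (1 / 2 : ℂ) * h2
  have h6 : b = k := by exact_mod_cast h4
  rw [h3, h6]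

/-- multisets of cube roots of unity -/
theorem o5040_cubes (w : ℂ) (s : Multiset ℂ) (hs : ∀ r ∈ s, r = 1 ∨ r = w ∨ r = w ^ 2) :
    ∃ a b c : ℕ, Multiset.card s = a + b + c ∧
      s.sum = (a : ℂ) + (b : ℂ) * w + (c : ℂ) * w ^ 2 ∧ s.prod = w ^ (b + 2 * c) := by
  induction s using Multiset.induction with
  | empty => exact ⟨0, 0, 0, by simp, by simp, by simp⟩
  | cons x s ih =>
    obtain ⟨a, b, c, h1, h2, h3⟩ := ih (fun r hr => hs r (Multiset.mem_cons_of_mem hr))
    rcases hs x (Multiset.mem_cons_self x s) with hx | hx | hx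
    · refine ⟨a + 1, b, c, ?_, ?_, ?_⟩
      · rw [Multiset.card_cons, h1]; ring
      · rw [Multiset.sum_cons, h2, hx]; push_cast; ring
      · rw [Multiset.prod_cons, h3, hx, one_mul]
    · refine ⟨a, b + 1, c, ?_, ?_, ?_⟩
      · rw [Multiset.card_cons, h1]; ring
      · rw [Multiset.sum_cons, h2, hx]; push_cast; ring
      · rw [Multiset.prod_cons, h3, hx]; ring
    · refine ⟨a, b, c + 1, ?_, ?_, ?_⟩
      · rw [Multiset.card_cons, h1]; ring
      · rw [Multiset.sum_cons, h2, hx]; push_cast; ring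
      · rw [Multiset.prod_cons, h3, hx]; ring

/-- PIECE DET3 (Mathlib only): determinant of a matrix of order three, size six, trace `1 + 5w`. -/
theorem o5040_det_ord3 (M : Matrix (Fin 6) (Fin 6) ℂ) (hM : M * M * M = 1) (w : ℂ)
    (hw : w ^ 2 + w + 1 = 0) (htr : M.trace = 1 + 5 * w) : M.det = w ^ 2 := by
  have hw3 : w ^ 3 = 1 := by linear_combination (w - 1) * hw
  have hroots : ∀ r ∈ M.charpoly.roots, r = 1 ∨ r = w ∨ r = w ^ 2 := by
    intro r hr
    obtain ⟨v, hv, hMv⟩ := o5040_root_eigen M r hr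
    have h1 : (M * M * M).mulVec v = (r * r * r) • v := by
      rw [← Matrix.mulVec_mulVec, hMv, Matrix.mulVec_smul, ← Matrix.mulVec_mulVec, hMv,
        Matrix.mulVec_smul, hMv, smul_smul, smul_smul]
    rw [hM, Matrix.one_mulVec] at h1
    have h2 : (r * r * r - 1) • v = 0 := by
      rw [sub_smul, one_smul, ← h1, sub_self]
    rcases smul_eq_zero.mp h2 with h3 | h3
    · have h4 : (r - 1) * ((r - w) * (r - w ^ 2)) = 0 := by
        linear_combination h3 + (-r ^ 2 + w * r - w + 1) * hw
      rcases mul_eq_zero.mp h4 with h5 | h5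
      · left; linear_combination h5
      · rcases mul_eq_zero.mp h5 with h6 | h6
        · right; left; linear_combination h6
        · right; right; linear_combination h6
    · exact absurd h3 hv
  obtain ⟨a, b, c, h1, h2, h3⟩ := o5040_cubes w _ hroots
  rw [o5040_card_roots] at h1
  rw [← Matrix.trace_eq_sum_roots_charpoly, htr] at h2
  rw [← Matrix.det_eq_prod_roots_charpoly] at h3
  -- `w` is not real
  have hwim : w.im ≠ 0 := by
    intro h0
    have hre : w = (w.re : ℂ) := Complex.ext rfl (by simp [h0])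
    rw [hre] at hw
    have h5 : w.re ^ 2 + w.re + 1 = 0 := by exact_mod_cast hw
    nlinarith [sq_nonneg (w.re + 1 / 2)]
  -- compare coefficients
  have h4 : ((a : ℂ) - c - 1) + ((b : ℂ) - c - 5) * w = 0 := by
    linear_combination (-1 : ℂ) * h2 - (c : ℂ) * hw
  have h5 : ((b : ℝ) - c - 5) * w.im = 0 := by
    have h6 := congrArg Complex.im h4
    simp only [Complex.add_im, Complex.sub_im, Complex.mul_im, Complex.natCast_im,
      Complex.natCast_re, Complex.one_im, Complex.zero_im, Complex.sub_re] at h6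
    have h7 : (5 : ℂ).im = 0 := by norm_num
    have h8 : (5 : ℂ).re = 5 := by norm_num
    rw [h7, h8] at h6
    linarith
  have h6 : (b : ℝ) - c - 5 = 0 := by
    rcases mul_eq_zero.mp h5 with h | h
    · exact h
    · exact absurd h hwim
  have h7 : (a : ℝ) - c - 1 = 0 := by
    have h8 : ((b : ℂ) - c - 5) = 0 := by exact_mod_cast congrArg (fun x : ℝ => (x : ℂ)) h6
    rw [h8, zero_mul, add_zero] at h4
    exact_mod_cast h4
  have hb : b = c + 5 := by
    have : (b : ℝ) = (c : ℝ) + 5 := by linarith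
    exact_mod_cast this
  have ha : a = c + 1 := by
    have : (a : ℝ) = (c : ℝ) + 1 := by linarith
    exact_mod_cast this
  have hc : c = 0 := by omega
  subst hc
  rw [h3, hb]
  calc w ^ (0 + 5 + 2 * 0) = w ^ 3 * w ^ 2 := by ring
    _ = w ^ 2 := by rw [hw3, one_mul]

end Cfsg.Agent.Helper19
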