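import Mathlib
import Cfsg.Agent.Helper9.OrdTools
import Cfsg.Agent.Helper8.SylFix

/-!
# Piece E15 of CALL S0978 (helper8): a simple group of order 5040 does not have 15 Sylow
7-subgroups
-/

set_option autoImplicit false
set_option linter.style.haveILetI false

universe u

namespace Cfsg.Agent.Helper19

/-- PIECE E15. -/
theorem o5040_n7_ne_15 {G : Type u} [Group G] [Finite G] [IsSimpleGroup G]
    (hG : Nat.card G = 5040) : Nat.card (Sylow 7 G) ≠ 15 := by
  classical
  intro h15
  haveI : Fact (Nat.Prime 7) := ⟨by norm_num⟩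
  haveI : Fact (Nat.Prime 2) := ⟨by norm_num⟩
  -- `G` is not abelian
  have hna : ∃ a b : G, a * b ≠ b * a := by
    by_contra hcon
    push Not at hcon
    obtain ⟨x, hx⟩ := exists_prime_orderOf_dvd_card' (G := G) 2 (by rw [hG]; norm_num)
    have hn : (Subgroup.zpowers x).Normal :=
      ⟨fun n hn y => by rw [hcon y n, mul_inv_cancel_right]; exact hn⟩
    have hc : Nat.card (Subgroup.zpowers x) = 2 := by rw [Nat.card_zpowers, hx]
    rcases hn.eq_bot_or_eq_top with h | h
    · rw [h, Subgroup.card_bot] at hc; omega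
    · rw [h, Subgroup.card_top, hG] at hc; omega
  obtain ⟨P⟩ : Nonempty (Sylow 7 G) := inferInstance
  have hP : Nat.card (P : Subgroup G) = 7 := by
    have h := Cfsg.Agent.Helper9.OrdTools.sylow_card (p := 7) 1 720 (by rw [hG]; norm_num) (by norm_num) P
    rw [h, pow_one]
  obtain ⟨-, -, -, hN⟩ := Cfsg.Agent.Helper9.OrdTools.sylow_num P (by rw [hP]; norm_num)
    (by rw [hP, hG]; norm_num)
  rw [h15, hG] at hN
  have hN336 : Nat.card (Subgroup.normalizer ((P : Subgroup G) : Set G)) = 336 := by omega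
  obtain ⟨e, he6, he1, hNC, -⟩ :=
    Cfsg.Agent.Helper9.OrdTools.normalizer_centralizer_prime P hP (by rw [hG]; norm_num)
  rw [hN336] at hNC
  have h2C : 2 ∣ Nat.card (Subgroup.centralizer ((P : Subgroup G) : Set G)) := by
    have he : e = 2 ∨ e = 3 ∨ e = 6 := by
      have hle : e ≤ 6 := Nat.le_of_dvd (by norm_num) he6
      interval_cases e <;> simp_all
    rcases he with rfl | rfl | rfl <;> omega
  obtain ⟨x, hx⟩ := exists_prime_orderOf_dvd_card'
    (G := ↥(Subgroup.centralizer ((P : Subgroup G) : Set G))) 2 h2C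
  have hw2 : orderOf (x : G) = 2 := by rw [Subgroup.orderOf_coe, hx]
  have hwc : ∀ y ∈ (P : Subgroup G), y * (x : G) = (x : G) * y := fun y hy =>
    (Subgroup.mem_centralizer_iff.mp x.2) y hy
  have hw1 : (x : G) ≠ 1 := by
    intro h
    rw [h, orderOf_one] at hw2
    omega
  have hww : (x : G) * (x : G) = 1 := by
    rw [← pow_two, ← hw2]
    exact pow_orderOf_eq_one _
  have hf7 := Cfsg.Agent.Helper8.SylFix.card_fixedBy_modEq_one P (x : G) hwc
  have hf2 := Cfsg.Agent.Helper8.SylFix.card_fixedBy_modEq (p := 7) (q := 2) (k := 1) (x : G)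
    (by rw [hw2, pow_one])
  have hflt := Cfsg.Agent.Helper8.SylFix.card_fixedBy_lt (p := 7) (by rw [h15]; norm_num)
    (x : G) hw1
  rw [h15] at hf2 hflt
  have hf1 : Nat.card (MulAction.fixedBy (Sylow 7 G) (x : G)) = 1 := by
    unfold Nat.ModEq at hf7 hf2
    omega
  haveI : Fintype (Sylow 7 G) := Fintype.ofFinite _
  have hcard : Fintype.card (Sylow 7 G) = 15 := by
    rw [← Nat.card_eq_fintype_card, h15]
  obtain ⟨σ, hσ⟩ : ∃ σ : Equiv.Perm (Sylow 7 G),
      σ = MulAction.toPermHom G (Sylow 7 G) (x : G) := ⟨_, rfl⟩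
  have hσ2 : σ ^ 2 = 1 := by
    rw [hσ, ← map_pow, pow_two, hww, map_one]
  have hfp : Function.fixedPoints σ = MulAction.fixedBy (Sylow 7 G) (x : G) := by
    ext a
    rw [Function.mem_fixedPoints, MulAction.mem_fixedBy, hσ]
    rfl
  have hfix : Fintype.card (Function.fixedPoints σ) + 2 * 7 = Fintype.card (Sylow 7 G) := by
    rw [hcard, ← Nat.card_eq_fintype_card, hfp, hf1]
  have hsign := Cfsg.Agent.Helper8.SylFix.sign_of_involution σ hσ2 7 hfix (by decide)
  have htriv := Cfsg.Agent.Helper9.OrdTools.hom_trivial hna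
    (Equiv.Perm.sign.comp (MulAction.toPermHom G (Sylow 7 G))) (x : G)
  rw [MonoidHom.comp_apply, ← hσ, hsign] at htriv
  exact absurd htriv (by decide)

end Cfsg.Agent.Helper19
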