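import Mathlib
import Cfsg.Agent.Helper8.O5040REP
import Cfsg.Agent.Helper19.O5040DET

/-!
# Pieces INV and ORD3 of CALL S0978 (helper8): parity of `χ(1) - χ(c)` for an involution, and the
non-existence of an element of order three with `χ(1) = 6`, `χ(c) = 1 + 5w`
-/

set_option autoImplicit false
open Cfsg
open scoped ComplexConjugate

universe u

namespace Cfsg.Agent.Helper19

/-- PIECE INV: in a nonabelian simple group, `χ(1) - χ(c) ≡ 0 (mod 4)` for an involution `c`. -/
theorem o5040_invol_mod4 {G : Type u} [Group G] [Finite G] [IsSimpleGroup G]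
    (hna : ∃ a b : G, a * b ≠ b * a) (χ : Cfsg.IrrCharacter G) (c : G) (hc : c * c = 1) (k : ℕ)
    (h : (χ : G → ℂ) c = (χ : G → ℂ) 1 - 2 * (k : ℂ)) : Even k := by
  obtain ⟨n, D, htr, hdet⟩ := Cfsg.Agent.Helper8.o5040_rep hna χ
  have hMM : D c * D c = 1 := by rw [← map_mul, hc, map_one]
  have h1 : (D 1).trace = (n : ℂ) := by
    rw [map_one, Matrix.trace_one, Fintype.card_fin]
  have htrc : (D c).trace = (n : ℂ) - 2 * (k : ℂ) := by
    rw [htr c, h, ← htr 1, h1]
  have hd := o5040_det_invol (D c) hMM k htrc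
  rw [hdet c] at hd
  by_contra hodd
  rw [Nat.not_even_iff_odd] at hodd
  rw [hodd.neg_one_pow] at hd
  norm_num at hd

/-- PIECE ORD3: no element of order three with `χ(1) = 6`, `χ(c) = 1 + 5w`. -/
theorem o5040_ord3 {G : Type u} [Group G] [Finite G] [IsSimpleGroup G]
    (hna : ∃ a b : G, a * b ≠ b * a) (χ : Cfsg.IrrCharacter G) (c : G) (hc : c * c * c = 1)
    (w : ℂ) (hw : w ^ 2 + w + 1 = 0) (h1 : (χ : G → ℂ) 1 = 6)
    (h : (χ : G → ℂ) c = 1 + 5 * w) : False := by
  obtain ⟨n, D, htr, hdet⟩ := Cfsg.Agent.Helper8.o5040_rep hna χ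
  have hn : n = 6 := by
    have h2 : (D 1).trace = (n : ℂ) := by
      rw [map_one, Matrix.trace_one, Fintype.card_fin]
    rw [htr 1, h1] at h2
    exact_mod_cast h2.symm
  subst hn
  have hMMM : D c * D c * D c = 1 := by rw [← map_mul, ← map_mul, hc, map_one]
  have hd := o5040_det_ord3 (D c) hMMM w hw (by rw [htr c, h])
  rw [hdet c] at hd
  -- `w ^ 2 = 1` and `w ^ 2 + w + 1 = 0` give `w = -2`, so `4 = 1`
  have hw2 : w = -2 := by linear_combination hw + hd
  rw [hw2] at hd
  norm_num at hd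

end Cfsg.Agent.Helper19
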