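import Mathlib
import Cfsg.Agent.Helper9.OrdTools
import Cfsg.Agent.S0985

/-!
# CALL S0983 part E, piece EG (`eng_syl_sq`) for helper82
-/

set_option autoImplicit false

namespace Cfsg.Agent.Helper19

/-- A subgroup of index `p` in a `p`-subgroup is normalized by it. -/
theorem o983eg_norm {G : Type*} [Group G] [Finite G] {p a : ℕ} (hp : p.Prime)
    (P D : Subgroup G) (hDP : D ≤ P) (hP : Nat.card P = p ^ a)
    (hD : Nat.card D * p = Nat.card P) : P ≤ Subgroup.normalizer (D : Set G) := by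
  have ha : a ≠ 0 := by
    rintro rfl
    rw [hP, pow_zero] at hD
    have : p ∣ 1 := Dvd.intro_left _ hD
    exact hp.one_lt.ne' (Nat.dvd_one.1 this)
  have hS : Nat.card (D.subgroupOf P) = Nat.card D :=
    Nat.card_congr (Subgroup.subgroupOfEquivOfLe hDP).toEquiv
  have hidx : (D.subgroupOf P).index = p := by
    have h1 := Subgroup.card_mul_index (D.subgroupOf P)
    rw [hS, ← hD] at h1
    have hD0 : 0 < Nat.card D := Nat.card_pos
    exact Nat.eq_of_mul_eq_mul_left hD0 h1
  have hnormal : (D.subgroupOf P).Normal :=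
    Subgroup.normal_of_index_eq_minFac_card (by rw [hidx, hP, hp.pow_minFac ha])
  intro x hx
  apply Subgroup.mem_normalizer_fintype
  intro y hy
  have h1 := hnormal.conj_mem ⟨y, hDP hy⟩ (by rw [Subgroup.mem_subgroupOf]; exact hy) ⟨x, hx⟩
  rw [Subgroup.mem_subgroupOf] at h1
  exact h1

variable {G : Type*} [Group G] [Finite G] [IsSimpleGroup G]

/-- piece EG (`Cfsg.Agent.S0985.result` with `k = 2`; the normalizer of `P ⊓ R`). -/
theorem eng_syl_sq (hG : ¬ IsMulCommutative G) (p a m : ℕ) (hp : p.Prime)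
    (hcard : Nat.card G = p ^ a * m) (hpm : ¬ p ∣ m) (ha : 2 ≤ a) (h24 : 24 < Nat.card G)
    (hd : Nat.card (Sylow p G) % (p * p) ≠ 1) :
    ∃ k d' : ℕ, k ∣ m ∧ k ≠ m ∧ 2 * Nat.card G ∣ (m / k).factorial ∧
      d' ∣ k ∧ d' % p = 1 ∧ d' ≠ 1 := by
  classical
  haveI : Fact p.Prime := ⟨hp⟩
  have hna : ∃ x y : G, x * y ≠ y * x := by
    by_contra hcon
    push Not at hcon
    exact hG ⟨⟨hcon⟩⟩
  have hp2 : 2 ≤ p := hp.two_le
  have hpa0 : 0 < p ^ a := pow_pos hp.pos a
  have hm0 : 0 < m := by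
    rcases Nat.eq_zero_or_pos m with h0 | h0
    · rw [h0, mul_zero] at hcard
      rw [hcard] at h24
      omega
    · exact h0
  have hcardP : ∀ P : Sylow p G, Nat.card (P : Subgroup G) = p ^ a :=
    fun P => Cfsg.Agent.Helper9.OrdTools.sylow_card a m hcard hpm P
  have hmod : ¬ Nat.card (Sylow p G) ≡ 1 [MOD p ^ 2] := by
    intro h1
    apply hd
    have h2 : Nat.card (Sylow p G) % (p ^ 2) = 1 % (p ^ 2) := h1
    rw [pow_two] at h2
    rw [h2]
    exact Nat.mod_eq_of_lt (by nlinarith)
  obtain ⟨P, R, hPR, hidx⟩ := Cfsg.Agent.S0985.result p 2 hmod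
  -- the intersection `D = R ⊓ P`
  have e1 : Nat.card ((R : Subgroup G) ⊓ (P : Subgroup G) : Subgroup G) =
      Nat.card ((R : Subgroup G).subgroupOf (P : Subgroup G)) := by
    rw [← Subgroup.subgroupOf_map_subtype,
      Subgroup.card_map_of_injective (Subgroup.subtype_injective _)]
  have e2 := Subgroup.card_mul_index ((R : Subgroup G).subgroupOf (P : Subgroup G))
  rw [hcardP P] at e2
  have hne1 : ((R : Subgroup G).subgroupOf (P : Subgroup G)).index ≠ 1 := by
    intro h1
    rw [Subgroup.index_eq_one, Subgroup.subgroupOf_eq_top] at h1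
    exact hPR (Sylow.ext (Subgroup.eq_of_le_of_card_ge h1 (by rw [hcardP P, hcardP R])))
  have hidxp : ((R : Subgroup G).subgroupOf (P : Subgroup G)).index = p := by
    have hdvd : ((R : Subgroup G).subgroupOf (P : Subgroup G)).index ∣ p ^ a :=
      Dvd.intro_left _ e2
    obtain ⟨j, hj, hj'⟩ := (Nat.dvd_prime_pow hp).1 hdvd
    have hle : ((R : Subgroup G).subgroupOf (P : Subgroup G)).index ≤ p := by simpa using hidx
    rw [hj'] at hne1 hle ⊢
    rcases j with _ | _ | j
    · exact absurd (pow_zero p) hne1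
    · exact pow_one p
    · exfalso
      have h3 : p ^ 2 ≤ p ^ (j + 1 + 1) := Nat.pow_le_pow_right hp.pos (by omega)
      have h4 : p < p ^ 2 := by nlinarith
      omega
  rw [hidxp] at e2
  have hDcard : Nat.card ((R : Subgroup G) ⊓ (P : Subgroup G) : Subgroup G) * p = p ^ a := by
    rw [e1]; exact e2
  have hPn : (P : Subgroup G) ≤ Subgroup.normalizer
      (((R : Subgroup G) ⊓ (P : Subgroup G) : Subgroup G) : Set G) :=
    o983eg_norm hp _ _ inf_le_right (hcardP P) (by rw [hDcard, hcardP P])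
  have hRn : (R : Subgroup G) ≤ Subgroup.normalizer
      (((R : Subgroup G) ⊓ (P : Subgroup G) : Subgroup G) : Set G) :=
    o983eg_norm hp _ _ inf_le_left (hcardP R) (by rw [hDcard, hcardP R])
  -- `D` is a proper nontrivial subgroup
  have hDgt : 1 < Nat.card ((R : Subgroup G) ⊓ (P : Subgroup G) : Subgroup G) := by
    by_contra hle
    have h1 : Nat.card ((R : Subgroup G) ⊓ (P : Subgroup G) : Subgroup G) ≤ 1 := by omega
    have h2 : p ^ 2 ≤ p ^ a := Nat.pow_le_pow_right hp.pos ha
    have h3 : p < p ^ 2 := by nlinarith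
    have h4 : Nat.card ((R : Subgroup G) ⊓ (P : Subgroup G) : Subgroup G) * p ≤ 1 * p :=
      Nat.mul_le_mul_right p h1
    omega
  have hDlt : Nat.card ((R : Subgroup G) ⊓ (P : Subgroup G) : Subgroup G) < Nat.card G := by
    have h1 : p ^ a ≤ p ^ a * m := Nat.le_mul_of_pos_right _ hm0
    have h2 : Nat.card ((R : Subgroup G) ⊓ (P : Subgroup G) : Subgroup G) <
        Nat.card ((R : Subgroup G) ⊓ (P : Subgroup G) : Subgroup G) * p := by
      have h0 : 0 < Nat.card ((R : Subgroup G) ⊓ (P : Subgroup G) : Subgroup G) := Nat.card_pos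
      nlinarith
    rw [hcard]; omega
  have hHtop : Subgroup.normalizer
      (((R : Subgroup G) ⊓ (P : Subgroup G) : Subgroup G) : Set G) ≠ ⊤ := by
    intro htop
    rw [Subgroup.normalizer_eq_top_iff] at htop
    rcases htop.eq_bot_or_eq_top with h1 | h1
    · rw [h1, Subgroup.card_bot] at hDgt
      omega
    · rw [h1, Subgroup.card_top] at hDlt
      omega
  -- the order of `H = N(D)`
  obtain ⟨k, hk⟩ : p ^ a ∣ Nat.card (Subgroup.normalizer
      (((R : Subgroup G) ⊓ (P : Subgroup G) : Subgroup G) : Set G)) := by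
    rw [← hcardP P]; exact Subgroup.card_dvd_of_le hPn
  have hkm : k ∣ m := by
    have h1 : p ^ a * k ∣ p ^ a * m := by
      rw [← hk, ← hcard]; exact Subgroup.card_subgroup_dvd_card _
    exact Nat.dvd_of_mul_dvd_mul_left hpa0 h1
  have hk0 : 0 < k := Nat.pos_of_dvd_of_pos hkm hm0
  have hkne : k ≠ m := by
    intro h1
    apply hHtop
    apply Subgroup.eq_top_of_card_eq
    rw [hk, h1, hcard]
  have hHidx : (Subgroup.normalizer
      (((R : Subgroup G) ⊓ (P : Subgroup G) : Subgroup G) : Set G)).index = m / k := by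
    have h1 := Subgroup.card_mul_index (Subgroup.normalizer
      (((R : Subgroup G) ⊓ (P : Subgroup G) : Subgroup G) : Set G))
    rw [hk, hcard, mul_assoc] at h1
    have h2 := Nat.eq_of_mul_eq_mul_left hpa0 h1
    exact (Nat.div_eq_of_eq_mul_right hk0 h2.symm).symm
  have hfac := Cfsg.Agent.Helper9.OrdTools.card_dvd_factorial_index _ hHtop
  rw [hHidx] at hfac
  have h5 : 5 ≤ m / k := by
    by_contra hlt
    have h4 : m / k ≤ 4 := by omega
    have h1 : (m / k).factorial ≤ Nat.factorial 4 := Nat.factorial_le h4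
    have h2 : Nat.card G ≤ (m / k).factorial := Nat.le_of_dvd (Nat.factorial_pos _) hfac
    have h3 : Nat.factorial 4 = 24 := by decide
    omega
  obtain ⟨k', hk', -⟩ := Cfsg.Agent.Helper9.OrdTools.alt_index hna (Subgroup.normalizer
      (((R : Subgroup G) ⊓ (P : Subgroup G) : Subgroup G) : Set G)) (by rw [hHidx]; exact h5)
  rw [hHidx] at hk'
  have h2G : 2 * Nat.card G ∣ (m / k).factorial := by
    rw [← hk']
    exact ⟨k', by ring⟩
  -- Sylow subgroups of `H`
  have hP'card : Nat.card ((P.subtype hPn : Sylow p ↥(Subgroup.normalizer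
      (((R : Subgroup G) ⊓ (P : Subgroup G) : Subgroup G) : Set G))) :
      Subgroup ↥(Subgroup.normalizer
      (((R : Subgroup G) ⊓ (P : Subgroup G) : Subgroup G) : Set G))) = p ^ a := by
    rw [Sylow.coe_subtype, Nat.card_congr (Subgroup.subgroupOfEquivOfLe hPn).toEquiv, hcardP P]
  have hP'idx : ((P.subtype hPn : Sylow p ↥(Subgroup.normalizer
      (((R : Subgroup G) ⊓ (P : Subgroup G) : Subgroup G) : Set G))) :
      Subgroup ↥(Subgroup.normalizer
      (((R : Subgroup G) ⊓ (P : Subgroup G) : Subgroup G) : Set G))).index = k := by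
    have h1 := Subgroup.card_mul_index ((P.subtype hPn : Sylow p ↥(Subgroup.normalizer
      (((R : Subgroup G) ⊓ (P : Subgroup G) : Subgroup G) : Set G))) :
      Subgroup ↥(Subgroup.normalizer
      (((R : Subgroup G) ⊓ (P : Subgroup G) : Subgroup G) : Set G)))
    rw [hP'card, hk] at h1
    exact Nat.eq_of_mul_eq_mul_left hpa0 h1
  have hd'k : Nat.card (Sylow p ↥(Subgroup.normalizer
      (((R : Subgroup G) ⊓ (P : Subgroup G) : Subgroup G) : Set G))) ∣ k := by
    rw [← hP'idx]
    exact Sylow.card_dvd_index (P.subtype hPn)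
  have hd'mod : Nat.card (Sylow p ↥(Subgroup.normalizer
      (((R : Subgroup G) ⊓ (P : Subgroup G) : Subgroup G) : Set G))) % p = 1 := by
    have h1 : Nat.card (Sylow p ↥(Subgroup.normalizer
      (((R : Subgroup G) ⊓ (P : Subgroup G) : Subgroup G) : Set G))) % p = 1 % p :=
      card_sylow_modEq_one p _
    rw [h1]
    exact Nat.mod_eq_of_lt (by omega)
  have hd'1 : Nat.card (Sylow p ↥(Subgroup.normalizer
      (((R : Subgroup G) ⊓ (P : Subgroup G) : Subgroup G) : Set G))) ≠ 1 := by
    intro h1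
    have hsub : Subsingleton (Sylow p ↥(Subgroup.normalizer
      (((R : Subgroup G) ⊓ (P : Subgroup G) : Subgroup G) : Set G))) :=
      (Nat.card_eq_one_iff_unique.1 h1).1
    have h2 : P.subtype hPn = R.subtype hRn := hsub.elim _ _
    exact hPR (Sylow.subtype_injective h2)
  exact ⟨k, _, hkm, hkne, h2G, hd'k, hd'mod, hd'1⟩

end Cfsg.Agent.Helper19
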