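import Mathlib
import Cfsg.Agent.Helper95.OSylDefs
set_option autoImplicit false

/-!
# Pieces O2A and O2B of CALL S4629 (helper95): reflections in `O_2(F)`
-/

open Matrix Cfsg
open Cfsg.Agent.Helper95.OSyl

namespace Cfsg.Agent.Helper19
universe u
variable {F : Type u} [Field F] {k r : ℕ}

theorem osyl_o2_entries (g : GL (Fin 2) F) (hg : g ∈ O2 F) :
    (g : Matrix (Fin 2) (Fin 2) F) 0 0 * (g : Matrix (Fin 2) (Fin 2) F) 0 0
        + (g : Matrix (Fin 2) (Fin 2) F) 1 0 * (g : Matrix (Fin 2) (Fin 2) F) 1 0 = 1 ∧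
      (g : Matrix (Fin 2) (Fin 2) F) 0 0 * (g : Matrix (Fin 2) (Fin 2) F) 0 1
        + (g : Matrix (Fin 2) (Fin 2) F) 1 0 * (g : Matrix (Fin 2) (Fin 2) F) 1 1 = 0 ∧
      (g : Matrix (Fin 2) (Fin 2) F) 0 1 * (g : Matrix (Fin 2) (Fin 2) F) 0 1
        + (g : Matrix (Fin 2) (Fin 2) F) 1 1 * (g : Matrix (Fin 2) (Fin 2) F) 1 1 = 1 := by
  rw [mem_O2] at hg
  have h00 := congrFun (congrFun hg 0) 0
  have h01 := congrFun (congrFun hg 0) 1
  have h11 := congrFun (congrFun hg 1) 1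
  simp only [Matrix.mul_apply, Fin.sum_univ_two, Matrix.transpose_apply, Matrix.one_apply_eq] at h00 h11
  simp only [Matrix.mul_apply, Fin.sum_univ_two, Matrix.transpose_apply] at h01
  rw [Matrix.one_apply_ne (by decide)] at h01
  exact ⟨h00, h01, h11⟩

theorem osyl_o2_sq (g : GL (Fin 2) F) (hg : g ∈ O2 F)
    (hdet : (g : Matrix (Fin 2) (Fin 2) F).det = -1) : g * g = 1 := by
  obtain ⟨h00, h01, h11⟩ := osyl_o2_entries g hg
  rw [Matrix.det_fin_two] at hdet
  set a := (g : Matrix (Fin 2) (Fin 2) F) 0 0 with ha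
  set b := (g : Matrix (Fin 2) (Fin 2) F) 0 1 with hb
  set c := (g : Matrix (Fin 2) (Fin 2) F) 1 0 with hc
  set d := (g : Matrix (Fin 2) (Fin 2) F) 1 1 with hd
  have hcb : c = b := by linear_combination (-c) * h11 + d * h01 - b * hdet
  have hda : d = -a := by linear_combination (-d) * h00 + a * hdet + c * h01
  apply Units.ext
  rw [Units.val_mul, Units.val_one]
  ext i j
  rw [Matrix.mul_apply, Fin.sum_univ_two]
  fin_cases i <;> fin_cases j
  · simp only [Fin.zero_eta, Matrix.one_apply_eq]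
    rw [← ha, ← hb, ← hc]
    linear_combination h00 - c * hcb
  · simp only [Fin.zero_eta, Fin.mk_one]
    rw [Matrix.one_apply_ne (by decide), ← ha, ← hb, ← hd]
    linear_combination b * hda
  · simp only [Fin.zero_eta, Fin.mk_one]
    rw [Matrix.one_apply_ne (by decide), ← ha, ← hc, ← hd]
    linear_combination c * hda
  · simp only [Fin.mk_one, Matrix.one_apply_eq]
    rw [← hb, ← hc, ← hd]
    linear_combination h11 + b * hcb

theorem osyl_o2_det_sq (g : GL (Fin 2) F) (hg : g ∈ O2 F) :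
    (g : Matrix (Fin 2) (Fin 2) F).det = 1 ∨ (g : Matrix (Fin 2) (Fin 2) F).det = -1 := by
  rw [mem_O2] at hg
  have h := congrArg Matrix.det hg
  rw [Matrix.det_mul, Matrix.det_transpose, Matrix.det_one] at h
  exact mul_self_eq_one_iff.mp h

theorem osyl_o2_gen (D : Subgroup ↥(O2 F)) (g₀ : ↥(O2 F)) (hg₀ : g₀ ∈ D)
    (hdet : ((g₀ : GL (Fin 2) F) : Matrix (Fin 2) (Fin 2) F).det = -1) :
    D = Subgroup.closure {g | g ∈ D ∧ ((g : GL (Fin 2) F) : Matrix (Fin 2) (Fin 2) F).det = -1} := by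
  apply le_antisymm
  · intro g hgD
    rcases osyl_o2_det_sq (g : GL (Fin 2) F) g.2 with h | h
    · have h1 : g * g₀ ∈ Subgroup.closure
          {g : ↥(O2 F) | g ∈ D ∧ ((g : GL (Fin 2) F) : Matrix (Fin 2) (Fin 2) F).det = -1} := by
        apply Subgroup.subset_closure
        refine ⟨D.mul_mem hgD hg₀, ?_⟩
        rw [Subgroup.coe_mul, Units.val_mul, Matrix.det_mul, h, hdet, one_mul]
      have h2 : g₀ ∈ Subgroup.closure
          {g : ↥(O2 F) | g ∈ D ∧ ((g : GL (Fin 2) F) : Matrix (Fin 2) (Fin 2) F).det = -1} :=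
        Subgroup.subset_closure ⟨hg₀, hdet⟩
      have h3 := Subgroup.mul_mem _ h1 (Subgroup.inv_mem _ h2)
      rwa [mul_inv_cancel_right] at h3
    · exact Subgroup.subset_closure ⟨hgD, h⟩
  · rw [Subgroup.closure_le]
    intro g hg
    exact hg.1

end Cfsg.Agent.Helper19
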