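/-
helper19: piece G2 of helper8's CALL S0976 (abstract Brauer–Suzuki–Wall pattern).
-/
import Mathlib
import Cfsg.Prelude.Def_Characters
import Cfsg.Prelude.Def_Blocks
import Cfsg.Agent.Helper3.Exceptional
import Cfsg.Agent.Helper3.TIConj
import Cfsg.Agent.Helper79.Induced
import Cfsg.Agent.Helper80.LinChar

set_option autoImplicit false

namespace Cfsg.Agent.Helper19

universe u

open Cfsg

/-- A class function with integer multiplicities and norm `2` is `± X ± Y` for two distinct
irreducible characters. -/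
theorem bsw_norm_two {G : Type u} [Group G] [Fintype G] (F : G → ℂ)
    (hcl : IsClassFunction G F)
    (hint : ∀ θ : IrrCharacter G, ∃ m : ℤ, classInner F θ = (m : ℂ))
    (hnorm : classInner F F = 2) :
    ∃ (X Y : IrrCharacter G) (a b : ℤ), X ≠ Y ∧ (a = 1 ∨ a = -1) ∧ (b = 1 ∨ b = -1) ∧
      F = (a : ℂ) • (X : G → ℂ) + (b : ℂ) • (Y : G → ℂ) ∧
      classInner F X = (a : ℂ) ∧ classInner F Y = (b : ℂ) := by
  classical
  have : Fintype (IrrCharacter G) := Fintype.ofFinite _
  choose c hc using hint
  have hdec := Cfsg.Agent.Helper3.classFunction_eq_sum F hcl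
  have hsym : ∀ θ : IrrCharacter G, classInner (θ : G → ℂ) F = (c θ : ℂ) := by
    intro θ
    rw [Cfsg.Agent.Helper3.classInner_conj F θ, hc]
    simp
  have key := Cfsg.Agent.Helper3.classInner_sum_left Finset.univ
    (fun θ : IrrCharacter G => (θ : G → ℂ)) (fun θ => classInner F θ) F
  rw [← hdec] at key
  simp only [hc, hsym] at key
  rw [hnorm] at key
  have hsumZ : ∑ θ : IrrCharacter G, c θ * c θ = 2 := by exact_mod_cast key.symm
  obtain ⟨x, y, hxy, hx, hy, hz⟩ := Cfsg.Agent.Helper3.int_sq_sum_two c hsumZ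
  have hF : F = (c x : ℂ) • (x : G → ℂ) + (c y : ℂ) • (y : G → ℂ) := by
    have e : ∑ θ : IrrCharacter G, classInner F θ • (θ : G → ℂ)
        = (c x : ℂ) • (x : G → ℂ) + (c y : ℂ) • (y : G → ℂ) := by
      simp only [hc]
      rw [← Finset.add_sum_erase Finset.univ _ (Finset.mem_univ x)]
      rw [← Finset.add_sum_erase (Finset.univ.erase x) _
        (Finset.mem_erase.mpr ⟨hxy.symm, Finset.mem_univ y⟩)]
      rw [Finset.sum_eq_zero, add_zero]
      intro z hz'
      have hz1 : z ≠ y := (Finset.mem_erase.mp hz').1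
      have hz2 : z ≠ x := (Finset.mem_erase.mp (Finset.mem_erase.mp hz').2).1
      rw [hz z hz2 hz1]
      simp
    rw [← e]
    exact hdec
  exact ⟨x, y, c x, c y, hxy, hx, hy, hF, hc x, hc y⟩

theorem bsw_pattern {G : Type u} [Group G] [Fintype G] (α : Fin 3 → G → ℂ)
    (hcl : ∀ i, IsClassFunction G (α i))
    (hint : ∀ i (χ : IrrCharacter G), ∃ z : ℤ, classInner (α i) (χ : G → ℂ) = (z : ℂ))
    (h1 : ∀ i, α i 1 = 0)
    (htriv : ∀ i, classInner (α i) (fun _ : G => (1 : ℂ)) = 1)
    (hgram : ∀ i j, classInner (α i) (α j) = 2 + if i = j then 1 else 0) :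
    ∃ (χ₁ : IrrCharacter G) (θ : Fin 3 → IrrCharacter G) (ε : ℤ), (ε = 1 ∨ ε = -1) ∧
      Function.Injective θ ∧ (χ₁ : G → ℂ) ≠ (fun _ => 1) ∧
      (∀ i, ((θ i : IrrCharacter G) : G → ℂ) ≠ (fun _ => 1)) ∧ (∀ i, θ i ≠ χ₁) ∧
      ∀ i, α i = fun g => 1 + (ε : ℂ) * ((χ₁ : G → ℂ) g - ((θ i : IrrCharacter G) : G → ℂ) g) := by
  classical
  set one : G → ℂ := fun _ => 1 with hone
  set triv : IrrCharacter G := ⟨one, Cfsg.Agent.Helper79.isIrrCharacter_one⟩ with htrivdef
  have htrivc : ∀ θ : IrrCharacter G, classInner one (θ : G → ℂ) = if triv = θ then 1 else 0 :=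
    fun θ => Cfsg.Agent.Helper3.classInner_irr triv θ
  have h11 : classInner one one = 1 := by
    have := htrivc triv
    rwa [if_pos rfl] at this
  have h1a : ∀ i, classInner one (α i) = 1 := by
    intro i
    rw [Cfsg.Agent.Helper3.classInner_conj (α i) one, htriv i]; simp
  have hFF : ∀ i j, classInner (α i - one) (α j - one) = 1 + if i = j then 1 else 0 := by
    intro i j
    rw [Cfsg.Agent.Helper3.classInner_sub_sub, hgram, htriv, h1a, h11]; ring
  have hFcl : ∀ i, IsClassFunction G (α i - one) := by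
    intro i g h
    show α i (h * g * h⁻¹) - 1 = α i g - 1
    rw [hcl i g h]
  have hFint : ∀ i (θ : IrrCharacter G), ∃ m : ℤ, classInner (α i - one) θ = (m : ℂ) := by
    intro i θ
    obtain ⟨z, hz⟩ := hint i θ
    refine ⟨z - (if triv = θ then 1 else 0), ?_⟩
    rw [Cfsg.Agent.Helper3.classInner_sub_left, hz, htrivc θ]
    push_cast
    split_ifs <;> simp
  have hFtriv : ∀ i, classInner (α i - one) one = 0 := by
    intro i; rw [Cfsg.Agent.Helper3.classInner_sub_left, htriv, h11]; ring
  have hF1 : ∀ i, (α i - one) 1 = -1 := by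
    intro i
    show α i 1 - 1 = -1
    rw [h1 i]; ring
  have hdec : ∀ i, ∃ A B : IrrCharacter G, A ≠ B ∧ A ≠ triv ∧ B ≠ triv ∧
      α i - one = (A : G → ℂ) - (B : G → ℂ) := by
    intro i
    obtain ⟨X, Y, a, b, hXY, ha, hb, hF, hcX, hcY⟩ :=
      bsw_norm_two (α i - one) (hFcl i) (hFint i) (by rw [hFF i i, if_pos rfl]; norm_num)
    have hXt : X ≠ triv := by
      intro h
      have h2 : classInner (α i - one) (X : G → ℂ) = 0 := by rw [h]; exact hFtriv i
      rw [hcX] at h2
      rcases ha with ha | ha <;> rw [ha] at h2 <;> simp at h2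
    have hYt : Y ≠ triv := by
      intro h
      have h2 : classInner (α i - one) (Y : G → ℂ) = 0 := by rw [h]; exact hFtriv i
      rw [hcY] at h2
      rcases hb with hb | hb <;> rw [hb] at h2 <;> simp at h2
    obtain ⟨dx, hdx, hdx'⟩ := Cfsg.Agent.Helper3.irr_apply_one_eq_nat X.2
    obtain ⟨dy, hdy, hdy'⟩ := Cfsg.Agent.Helper3.irr_apply_one_eq_nat Y.2
    have hval : (a : ℤ) * (dx : ℤ) + b * (dy : ℤ) = -1 := by
      have h2 := congrFun hF 1
      rw [hF1 i] at h2
      simp only [Pi.add_apply, Pi.smul_apply, smul_eq_mul] at h2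
      rw [hdx', hdy'] at h2
      exact_mod_cast h2.symm
    have hdx0 : (0 : ℤ) < dx := by exact_mod_cast hdx
    have hdy0 : (0 : ℤ) < dy := by exact_mod_cast hdy
    rcases ha with ha | ha <;> rcases hb with hb | hb
    · rw [ha, hb] at hval; omega
    · refine ⟨X, Y, hXY, hXt, hYt, ?_⟩
      rw [hF, ha, hb]
      funext g
      simp only [Pi.add_apply, Pi.smul_apply, Pi.sub_apply, smul_eq_mul]
      push_cast
      ring
    · refine ⟨Y, X, hXY.symm, hYt, hXt, ?_⟩
      rw [hF, ha, hb]
      funext g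
      simp only [Pi.add_apply, Pi.smul_apply, Pi.sub_apply, smul_eq_mul]
      push_cast
      ring
    · rw [ha, hb] at hval; omega
  choose A B hAB hAt hBt hFAB using hdec
  have hP : ∀ k l : Fin 3, k ≠ l → (A k = A l ∧ B k ≠ B l) ∨ (A k ≠ A l ∧ B k = B l) := by
    intro k l hkl
    have h := hFF k l
    rw [hFAB k, hFAB l, Cfsg.Agent.Helper3.classInner_sub_sub, Cfsg.Agent.Helper3.classInner_irr,
      Cfsg.Agent.Helper3.classInner_irr, Cfsg.Agent.Helper3.classInner_irr,
      Cfsg.Agent.Helper3.classInner_irr, if_neg hkl] at h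
    have hk' := hAB k
    have hl' := hAB l
    by_cases h1 : A k = A l <;> by_cases h2 : B k = B l
    · exfalso
      have h3 : A k ≠ B l := fun h => hk' (h.trans h2.symm)
      have h4 : B k ≠ A l := fun h => hk' (h1.trans h.symm)
      rw [if_pos h1, if_pos h2, if_neg h3, if_neg h4] at h
      norm_num at h
    · exact Or.inl ⟨h1, h2⟩
    · exact Or.inr ⟨h1, h2⟩
    · exfalso
      rw [if_neg h1, if_neg h2] at h
      by_cases h3 : A k = B l <;> by_cases h4 : B k = A l
      · rw [if_pos h3, if_pos h4] at h; norm_num at h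
      · rw [if_pos h3, if_neg h4] at h; norm_num at h
      · rw [if_neg h3, if_pos h4] at h; norm_num at h
      · rw [if_neg h3, if_neg h4] at h; norm_num at h
  by_cases hex : ∃ k l : Fin 3, k ≠ l ∧ A k = A l
  · obtain ⟨k, l, hkl, hAkl⟩ := hex
    have hBkl : B k ≠ B l := by
      rcases hP k l hkl with ⟨_, h⟩ | ⟨h, _⟩
      · exact h
      · exact absurd hAkl h
    have hall : ∀ m, A m = A k := by
      intro m
      by_contra hm
      have hmk : m ≠ k := fun h => hm (by rw [h])
      have hml : m ≠ l := fun h => hm (by rw [h, hAkl])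
      have h1 : B m = B k := by
        rcases hP m k hmk with ⟨h, _⟩ | ⟨_, h⟩
        · exact absurd h hm
        · exact h
      have h2 : B m = B l := by
        rcases hP m l hml with ⟨h, _⟩ | ⟨_, h⟩
        · exact absurd (h.trans hAkl.symm) hm
        · exact h
      exact hBkl (h1.symm.trans h2)
    have hBinj : Function.Injective B := by
      intro m n hmn
      by_contra hne
      rcases hP m n hne with ⟨_, h⟩ | ⟨h, _⟩
      · exact h hmn
      · exact h ((hall m).trans (hall n).symm)
    refine ⟨A k, B, 1, Or.inl rfl, hBinj, ?_, ?_, ?_, ?_⟩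
    · intro h; exact hAt k (Subtype.ext h)
    · intro i h; exact hBt i (Subtype.ext h)
    · intro i h; exact hAB i (by rw [hall i]; exact h.symm)
    · intro i
      funext g
      have h2 := congrFun (hFAB i) g
      simp only [Pi.sub_apply] at h2
      rw [hall i] at h2
      push_cast
      linear_combination h2
  · push Not at hex
    have hAinj : Function.Injective A := fun m n hmn => by
      by_contra hne
      exact hex m n hne hmn
    have hall : ∀ m n, B m = B n := by
      intro m n
      by_cases hmn : m = n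
      · rw [hmn]
      · rcases hP m n hmn with ⟨h, _⟩ | ⟨_, h⟩
        · exact absurd h (hex m n hmn)
        · exact h
    refine ⟨B 0, A, -1, Or.inr rfl, hAinj, ?_, ?_, ?_, ?_⟩
    · intro h; exact hBt 0 (Subtype.ext h)
    · intro i h; exact hAt i (Subtype.ext h)
    · intro i h; exact hAB i (by rw [h]; exact hall 0 i)
    · intro i
      funext g
      have h2 := congrFun (hFAB i) g
      simp only [Pi.sub_apply] at h2
      rw [hall i 0] at h2
      push_cast
      linear_combination h2

end Cfsg.Agent.Helper19
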