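/-
helper19: piece G3 of helper8's CALL S0976 (degrees in the Brauer–Suzuki–Wall argument for a
self-centralizing Sylow 7-subgroup with dihedral normalizer).
-/
import Mathlib
import Cfsg.Prelude.Def_Characters
import Cfsg.Prelude.Def_Blocks
import Cfsg.Agent.Helper3.Exceptional
import Cfsg.Agent.Helper3.TIConj
import Cfsg.Agent.Helper79.Induced
import Cfsg.Agent.Helper80.LinChar

set_option autoImplicit false

namespace Cfsg.Agent.Helper19

universe u

open Cfsg
open scoped ComplexConjugate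

theorem bsw7_degree {G : Type u} [Group G] [Fintype G] (x t : G) (hx : orderOf x = 7)
    (ht : t * x * t⁻¹ = x⁻¹) (lam : ↥(Subgroup.zpowers x) →* ℂˣ) (hlam : lam ≠ 1)
    (ψ : G → ℂ) (hψ : IsCharacter G ψ) (c : ℤ)
    (h : ∀ i : ℕ, 1 ≤ i → i ≤ 3 →
      classInner (indFun (Subgroup.zpowers x) (fun h => 1 - (((lam ^ i) h : ℂˣ) : ℂ))) ψ = (c : ℂ)) :
    ∃ m : ℕ, c ≤ (m : ℤ) ∧ (charDegree ψ : ℤ) = 7 * m - 6 * c := by
  classical
  have : Fintype ↥(Subgroup.zpowers x) := Fintype.ofFinite _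
  have hcardP : Nat.card ↥(Subgroup.zpowers x) = 7 := by rw [Nat.card_zpowers, hx]
  have : Fact (Nat.Prime 7) := ⟨by norm_num⟩
  have hψPc : IsCharacter ↥(Subgroup.zpowers x) (fun y : ↥(Subgroup.zpowers x) => ψ y) :=
    Cfsg.Agent.Helper79.isCharacter_restrict hψ (Subgroup.zpowers x)
  have hnat : ∀ k : ℕ, ∃ n : ℕ,
      classInner (fun y : ↥(Subgroup.zpowers x) => (((lam ^ k) y : ℂˣ) : ℂ))
        (fun y : ↥(Subgroup.zpowers x) => ψ y) = (n : ℂ) := by
    intro k
    exact Cfsg.Agent.Helper3.classInner_isCharacter_nat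
      (Cfsg.Agent.Helper79.isCharacter_of_irr
        (Cfsg.Agent.Helper79.isIrrCharacter_of_hom (lam ^ k))) hψPc
  choose n hn using hnat
  -- Frobenius reciprocity
  have hfrob : ∀ i, 1 ≤ i → i ≤ 3 → (n 0 : ℤ) - (n i : ℤ) = c := by
    intro i hi hi3
    have h1 := h i hi hi3
    rw [Cfsg.Agent.Helper3.frobenius_reciprocity (Subgroup.zpowers x) _ ψ
      (Cfsg.Agent.Helper79.isCharacter_isClassFunction hψ)] at h1
    have e : (fun y : ↥(Subgroup.zpowers x) => 1 - (((lam ^ i) y : ℂˣ) : ℂ))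
        = (fun y : ↥(Subgroup.zpowers x) => (((lam ^ 0) y : ℂˣ) : ℂ))
          - (fun y : ↥(Subgroup.zpowers x) => (((lam ^ i) y : ℂˣ) : ℂ)) := by
      funext y; simp
    rw [e, Cfsg.Agent.Helper3.classInner_sub_left, hn, hn] at h1
    exact_mod_cast h1
  have hpow7 : ∀ y : ↥(Subgroup.zpowers x), y ^ 7 = 1 := by
    intro y
    have := pow_card_eq_one' (G := ↥(Subgroup.zpowers x)) (x := y)
    rwa [hcardP] at this
  have hinvψ : ∀ y : ↥(Subgroup.zpowers x), ψ ((y⁻¹ : ↥(Subgroup.zpowers x)) : G) = ψ (y : G) := by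
    intro y
    obtain ⟨k, hk⟩ := Subgroup.mem_zpowers_iff.mp y.2
    have e : ((y⁻¹ : ↥(Subgroup.zpowers x)) : G) = t * (y : G) * t⁻¹ := by
      rw [Subgroup.coe_inv, ← hk, ← conj_zpow, ht, inv_zpow]
    rw [e]
    exact Cfsg.Agent.Helper79.isCharacter_conj_eq hψ _ _
  have hsym : ∀ k, k ≤ 7 → n (7 - k) = n k := by
    intro k hk
    have h2 : classInner (fun y : ↥(Subgroup.zpowers x) => (((lam ^ (7 - k)) y : ℂˣ) : ℂ))
        (fun y : ↥(Subgroup.zpowers x) => ψ y)
        = classInner (fun y : ↥(Subgroup.zpowers x) => (((lam ^ k) y : ℂˣ) : ℂ))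
        (fun y : ↥(Subgroup.zpowers x) => ψ y) := by
      simp only [classInner]
      congr 1
      rw [← Equiv.sum_comp (Equiv.inv ↥(Subgroup.zpowers x))]
      apply Finset.sum_congr rfl
      intro y _
      simp only [Equiv.inv_apply]
      rw [hinvψ y]
      congr 2
      simp only [MonoidHom.pow_apply, map_inv]
      have h7 : lam y ^ 7 = 1 := by rw [← map_pow, hpow7, map_one]
      have h3 : lam y ^ (7 - k) * lam y ^ k = 1 := by
        rw [← pow_add, Nat.sub_add_cancel hk, h7]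
      exact inv_eq_of_mul_eq_one_right h3
    rw [hn, hn] at h2
    exact_mod_cast h2
  have hdeg : ψ 1 = (charDegree ψ : ℂ) := Cfsg.Agent.Helper79.isCharacter_one_eq_charDegree hψ
  have hsum : ∑ k ∈ Finset.range 7, (n k : ℂ) = (charDegree ψ : ℂ) := by
    have h2 : ∀ k, (n k : ℂ) = classInner (fun y : ↥(Subgroup.zpowers x) => (((lam ^ k) y : ℂˣ) : ℂ))
        (fun y : ↥(Subgroup.zpowers x) => ψ y) := fun k => (hn k).symm
    simp only [h2, classInner]
    rw [← Finset.mul_sum, Finset.sum_comm]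
    have key : ∀ y : ↥(Subgroup.zpowers x),
        ∑ k ∈ Finset.range 7, (((lam ^ k) y : ℂˣ) : ℂ) * conj (ψ (y : G))
          = if y = 1 then 7 * (charDegree ψ : ℂ) else 0 := by
      intro y
      rw [← Finset.sum_mul]
      by_cases hy : y = 1
      · rw [if_pos hy, hy]
        simp [hdeg]
      · rw [if_neg hy]
        have hne : ((lam y : ℂˣ) : ℂ) ≠ 1 := by
          intro h1
          have h3 : lam y = 1 := Units.ext h1
          apply hlam
          ext z
          have hz : z ∈ Subgroup.zpowers y := by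
            rw [zpowers_eq_top_of_prime_card hcardP hy]; exact Subgroup.mem_top z
          obtain ⟨j, rfl⟩ := Subgroup.mem_zpowers_iff.mp hz
          rw [map_zpow, h3]; simp
        have h7 : ((lam y : ℂˣ) : ℂ) ^ 7 = 1 := by
          rw [← Units.val_pow_eq_pow_val, ← map_pow, hpow7, map_one]; rfl
        have h0 : ∑ k ∈ Finset.range 7, (((lam ^ k) y : ℂˣ) : ℂ) = 0 := by
          simp only [MonoidHom.pow_apply, Units.val_pow_eq_pow_val]
          rw [geom_sum_eq hne, h7]; simp
        rw [h0, zero_mul]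
    rw [Finset.sum_congr rfl (fun y _ => key y), Finset.sum_ite_eq' Finset.univ (1 : ↥(Subgroup.zpowers x)),
      if_pos (Finset.mem_univ _), hcardP]
    push_cast
    field_simp
  have e1 := hfrob 1 le_rfl (by norm_num)
  have e2 := hfrob 2 (by norm_num) (by norm_num)
  have e3 := hfrob 3 (by norm_num) le_rfl
  have s1 := hsym 1 (by norm_num)
  have s2 := hsym 2 (by norm_num)
  have s3 := hsym 3 (by norm_num)
  norm_num at s1 s2 s3
  have hsumN : n 0 + n 1 + n 2 + n 3 + n 4 + n 5 + n 6 = charDegree ψ := by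
    have : ((n 0 + n 1 + n 2 + n 3 + n 4 + n 5 + n 6 : ℕ) : ℂ) = (charDegree ψ : ℂ) := by
      rw [← hsum]
      simp [Finset.sum_range_succ]
    exact_mod_cast this
  refine ⟨n 0, by omega, by omega⟩

end Cfsg.Agent.Helper19
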