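import Cfsg.Agent.Helper85.PiDefs
import Cfsg.Agent.Helper85.PiGen
import Cfsg.Agent.Helper84.FusionSat2

/-!
# Piece SHR of CALL S5113 (helper85): receptivity in the candidate subsystem of a fully normalized
subgroup satisfying the degree lemma on all its conjugates.
-/

set_option autoImplicit false

namespace Cfsg.Agent.Helper19.PiSHR

open Cfsg Cfsg.FusionSystem Cfsg.Agent.Helper85 Cfsg.Agent.Helper88

variable {Ω : Type*} [Group Ω] {S : Subgroup Ω}

theorem pi_receptive_of_deg [Finite S] {p : ℕ} [Fact p.Prime] (hS : IsPGroup p S) {F : FusionSystem S}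
    {T : Subgroup Ω} (hh : PiHyp F p T) (hfr : PiFrat F p T) {E : FusionSystem T} (hE : PiSys F p E)
    {P : Subgroup Ω} (hP : F.IsFullyNormalized P) (hPT : P ≤ T)
    (hdeg : ∀ R : Subgroup Ω, F.IsConj P R → PiDeg F p T R) : E.IsReceptive P := by
  have hPrec : F.IsReceptive P :=
    (Cfsg.Agent.Helper84.saturated_fullyNormalized hS F hh.sat hP).2
  refine ⟨hPT, fun Q φ hφ hr => ?_⟩
  -- `φ` is a map of the candidate subsystem, hence of `F`
  have hφE : IsMap E Q (extHom φ) := isMap_extHom hφ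
  have hφgen : PiGen F p T Q (extHom φ) := (hE Q (extHom φ)).mp hφE
  have hφF : IsMap F Q (extHom φ) := piGen_isMap hh.le hφgen
  have hφF' : φ ∈ F.Hom Q := (isMap_iff_hom F φ).mpr hφF
  obtain ⟨ψ₀, hψ₀, hψ₀φ⟩ := hPrec.2 Q φ hφF' hr
  have hQT : Q ≤ T := (E.le_of_mem hφ).1
  have hφT : ∀ x : Q, φ x ∈ T := (E.le_of_mem hφ).2
  -- the extender in `T` lies in the extender in `S`, and in `T`
  have hle : extender T Q φ ≤ extender S Q φ := by
    unfold extender
    apply Subgroup.closure_mono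
    rintro g ⟨hgT, hgN, h, hhT, hc⟩
    exact ⟨hh.le hgT, hgN, h, hh.le hhT, hc⟩
  have hMT : extender T Q φ ≤ T := by
    unfold extender
    rw [Subgroup.closure_le]
    rintro g ⟨hgT, -, -⟩
    exact hgT
  have hQM : Q ≤ extender T Q φ := le_extender hQT φ hφT
  -- the extension, restricted to `M`
  have hf₀ : IsMap F (extender T Q φ) (extHom ψ₀) := (isMap_extHom hψ₀).restrict hle
  obtain ⟨s, hsS, he⟩ := hfr (extender T Q φ) (extHom ψ₀) hf₀ hMT
  have hf₀Q : ∀ x (hx : x ∈ Q), extHom ψ₀ x = φ ⟨x, hx⟩ := by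
    intro x hx
    rw [extHom_apply' ψ₀ (hle (hQM hx))]
    exact hψ₀φ x hx (hle (hQM hx))
  -- `e` on `Q`
  have heQ : PiGen F p T Q (fun x => s⁻¹ * extHom ψ₀ x * s) := piGen_restrict he hQM
  have heQF : IsMap F Q (fun x => s⁻¹ * extHom ψ₀ x * s) := piGen_isMap hh.le heQ
  obtain ⟨g, hg, hginv⟩ := piGen_exists_inv hS hh heQ
  have hgQ : ∀ y ∈ img Q (fun x => s⁻¹ * extHom ψ₀ x * s), g y ∈ Q := by
    intro y hy
    obtain ⟨x, hx, rfl⟩ := heQF.mem_img.mp hy
    rw [hginv x hx]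
    exact hx
  have hcs : PiGen F p T (img Q (fun x => s⁻¹ * extHom ψ₀ x * s)) (fun y => s * y * s⁻¹) := by
    refine PiGen.congr (PiGen.comp hg hφgen hgQ) (fun y hy => ?_)
    obtain ⟨x, hx, rfl⟩ := heQF.mem_img.mp hy
    show s * (s⁻¹ * extHom ψ₀ x * s) * s⁻¹ = extHom φ (g (s⁻¹ * extHom ψ₀ x * s))
    rw [hginv x hx, hf₀Q x hx, extHom_apply' φ hx]
    group
  have hconj : F.IsConj P (img Q (fun x => s⁻¹ * extHom ψ₀ x * s)) := by
    have h1 : F.IsConj Q P := ⟨φ, hφF', hr⟩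
    exact Helper88.isConj_trans F (Helper88.isConj_symm F h1) heQF.isConj
  have hsT : s ∈ T := hdeg _ hconj s hsS hcs
  -- so the extension restricted to `M` is a map of the candidate subsystem
  have hf₀gen : PiGen F p T (extender T Q φ) (extHom ψ₀) := by
    refine PiGen.congr (PiGen.comp he (PiGen.conj (piGen_img_le hS hh he) hsT)
      (fun x hx => (piGen_isMap hh.le he).apply_mem_img hx)) (fun x _ => ?_)
    show extHom ψ₀ x = s * (s⁻¹ * extHom ψ₀ x * s) * s⁻¹
    group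
  refine ⟨ψ₀.comp (Subgroup.inclusion hle), ?_, fun x hQ hN => ?_⟩
  · apply (isMap_iff_hom E _).mpr
    apply (hE _ _).mpr
    refine PiGen.congr hf₀gen (fun x hx => ?_)
    rw [extHom_apply' _ hx, extHom_apply' ψ₀ (hle hx)]
    rfl
  · exact hψ₀φ x hQ (hle hN)

end Cfsg.Agent.Helper19.PiSHR
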