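import Mathlib

/-!
# CALL S2361, piece SOLV for helper6

A non-trivial finite solvable subgroup `S` has a non-trivial normal `p`-subgroup `Q` with
`p` odd, or `|Q| ≥ 4`, or `|S| = 2`.
-/

set_option autoImplicit false

namespace Cfsg.Agent.Helper19

/-- A non-trivial finite solvable group has a non-trivial normal `p`-subgroup. -/
theorem ree2361_exists_normal_pgroup (H : Type*) [Group H] [Finite H] [Group.IsSolvable H]
    [Nontrivial H] :
    ∃ (p : ℕ) (Q : Subgroup H), p.Prime ∧ Q.Normal ∧ Q ≠ ⊥ ∧ IsPGroup p Q := by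
  classical
  have hex : ∃ n, derivedSeries H n = ⊥ := (Group.isSolvable_def H).1 inferInstance
  have hm : derivedSeries H (Nat.find hex) = ⊥ := Nat.find_spec hex
  have hm0 : Nat.find hex ≠ 0 := by
    intro h0
    rw [h0, derivedSeries_zero] at hm
    exact top_ne_bot hm
  obtain ⟨k, hk⟩ := Nat.exists_eq_succ_of_ne_zero hm0
  have hk1 : derivedSeries H k ≠ ⊥ := Nat.find_min hex (by omega : k < Nat.find hex)
  have hcomm : ∀ a ∈ derivedSeries H k, ∀ b ∈ derivedSeries H k, a * b = b * a := by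
    have h0 : ⁅derivedSeries H k, derivedSeries H k⁆ = ⊥ := by
      rw [← derivedSeries_succ]; rw [hk] at hm; exact hm
    intro a ha b hb
    have h1 := Subgroup.commutator_mem_commutator ha hb
    rw [h0, Subgroup.mem_bot, commutatorElement_def] at h1
    calc a * b = (a * b * a⁻¹ * b⁻¹) * (b * a) := by group
      _ = b * a := by rw [h1, one_mul]
  have hNn : (derivedSeries H k).Normal := derivedSeries_normal H k
  have hN1 : Nat.card (derivedSeries H k) ≠ 1 := by
    rwa [Ne, Subgroup.card_eq_one]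
  obtain ⟨p, hp, hpd⟩ := Nat.exists_prime_and_dvd hN1
  have : Fact p.Prime := ⟨hp⟩
  obtain ⟨P⟩ : Nonempty (Sylow p (derivedSeries H k)) := inferInstance
  have hPn : (P : Subgroup (derivedSeries H k)).Normal := ⟨fun x hx g => by
    have h2 : g * x * g⁻¹ = x := by
      have h3 := hcomm g g.2 x x.2
      apply Subtype.ext
      simp only [Subgroup.coe_mul, Subgroup.coe_inv]
      rw [h3]; group
    rw [h2]; exact hx⟩
  have := hPn
  have : (P : Subgroup (derivedSeries H k)).Characteristic := Sylow.characteristic_of_normal P hPn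
  have hnorm : ((P : Subgroup (derivedSeries H k)).map (derivedSeries H k).subtype).Normal :=
    ConjAct.normal_of_characteristic_of_normal
  refine ⟨p, (P : Subgroup (derivedSeries H k)).map (derivedSeries H k).subtype, hp, hnorm, ?_,
    P.isPGroup'.map _⟩
  intro h
  rw [Subgroup.map_eq_bot_iff_of_injective _ (derivedSeries H k).subtype_injective] at h
  exact P.ne_bot_of_dvd_card hpd h

/-- The refined version: `p` odd, or `|Q| ≥ 4`, or `|H| = 2`. -/
theorem ree2361_exists_normal_pgroup' (H : Type*) [Group H] [Finite H] [Group.IsSolvable H]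
    [Nontrivial H] :
    ∃ (p : ℕ) (Q : Subgroup H), p.Prime ∧ Q.Normal ∧ Q ≠ ⊥ ∧ IsPGroup p Q ∧
      (p ≠ 2 ∨ 4 ≤ Nat.card Q ∨ Nat.card H = 2) := by
  classical
  obtain ⟨p, Q, hp, hQn, hQ1, hQp⟩ := ree2361_exists_normal_pgroup H
  by_cases hp2 : p = 2
  swap
  · exact ⟨p, Q, hp, hQn, hQ1, hQp, Or.inl hp2⟩
  subst hp2
  by_cases h4 : 4 ≤ Nat.card Q
  · exact ⟨2, Q, hp, hQn, hQ1, hQp, Or.inr (Or.inl h4)⟩
  by_cases hH2 : Nat.card H = 2
  · exact ⟨2, Q, hp, hQn, hQ1, hQp, Or.inr (Or.inr hH2)⟩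
  -- now `|Q| = 2` and `Q ≠ ⊤`
  have hQc : Nat.card Q = 2 := by
    obtain ⟨n, hn⟩ := (IsPGroup.iff_card (p := 2) (G := Q)).1 hQp
    have h1 : Nat.card Q ≠ 1 := by rwa [Ne, Subgroup.card_eq_one]
    rcases n with _ | _ | n
    · rw [pow_zero] at hn; exact absurd hn h1
    · simpa using hn
    · exfalso
      apply h4
      rw [hn, pow_succ, pow_succ]
      have : 1 ≤ 2 ^ n := Nat.one_le_two_pow
      omega
  have hQtop : Q ≠ ⊤ := by
    intro h
    apply hH2
    rw [← Subgroup.card_top (G := H), ← h]; exact hQc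
  have := hQn
  have : Nontrivial (H ⧸ Q) := by
    by_contra hcon
    rw [not_nontrivial_iff_subsingleton] at hcon
    apply hQtop
    rw [← Subgroup.index_eq_one, Subgroup.index]
    exact Nat.card_eq_one_iff_unique.2 ⟨hcon, ⟨QuotientGroup.mk 1⟩⟩
  obtain ⟨r, R, hr, hRn, hR1, hRr⟩ := ree2361_exists_normal_pgroup (H ⧸ Q)
  have := hRn
  have hN2n : (R.comap (QuotientGroup.mk' Q)).Normal := hRn.comap _
  -- the order of the preimage
  have hcard : Nat.card (R.comap (QuotientGroup.mk' Q)) = Nat.card R * 2 := by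
    have h1 : (R.comap (QuotientGroup.mk' Q)).index = R.index :=
      Subgroup.index_comap_of_surjective R (QuotientGroup.mk'_surjective Q)
    have h2 := Subgroup.card_mul_index (R.comap (QuotientGroup.mk' Q))
    have h3 := Subgroup.card_mul_index R
    have h4' := Subgroup.card_eq_card_quotient_mul_card_subgroup Q
    rw [hQc] at h4'
    rw [h1] at h2
    have hpos : 0 < R.index := Nat.pos_of_ne_zero Subgroup.index_ne_zero_of_finite
    have : Nat.card (R.comap (QuotientGroup.mk' Q)) * R.index = (Nat.card R * 2) * R.index := by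
      rw [h2, h4', ← h3]; ring
    exact Nat.eq_of_mul_eq_mul_right hpos this
  have hrf : Fact r.Prime := ⟨hr⟩
  obtain ⟨a, ha⟩ := (IsPGroup.iff_card (p := r) (G := R)).1 hRr
  have hR1' : Nat.card R ≠ 1 := by rwa [Ne, Subgroup.card_eq_one]
  have ha0 : a ≠ 0 := by
    rintro rfl
    rw [pow_zero] at ha
    exact hR1' ha
  by_cases hr2 : r = 2
  · subst hr2
    have hc2 : Nat.card (R.comap (QuotientGroup.mk' Q)) = 2 ^ (a + 1) := by
      rw [hcard, ha, pow_succ]
    have h4'' : 4 ≤ Nat.card (R.comap (QuotientGroup.mk' Q)) := by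
      rw [hc2]
      obtain ⟨b, rfl⟩ := Nat.exists_eq_succ_of_ne_zero ha0
      rw [pow_succ, pow_succ]
      have : 1 ≤ 2 ^ b := Nat.one_le_two_pow
      omega
    refine ⟨2, R.comap (QuotientGroup.mk' Q), hp, hN2n, ?_, IsPGroup.of_card hc2,
      Or.inr (Or.inl h4'')⟩
    intro h
    rw [← Subgroup.card_eq_one] at h
    omega
  · -- `r` odd: the Sylow `r`-subgroup of the preimage has index at most 2
    obtain ⟨P⟩ : Nonempty (Sylow r (R.comap (QuotientGroup.mk' Q))) := inferInstance
    have hidx : (P : Subgroup (R.comap (QuotientGroup.mk' Q))).index ∣ 2 := by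
      have h1 : (P : Subgroup (R.comap (QuotientGroup.mk' Q))).index ∣
          Nat.card (R.comap (QuotientGroup.mk' Q)) := Subgroup.index_dvd_card _
      rw [hcard, ha] at h1
      have h2 : Nat.Coprime (P : Subgroup (R.comap (QuotientGroup.mk' Q))).index (r ^ a) :=
        Nat.Coprime.pow_right _ ((Nat.coprime_comm).1
          ((Nat.Prime.coprime_iff_not_dvd hr).2 P.not_dvd_index))
      exact h2.dvd_of_dvd_mul_left h1
    have hPn : (P : Subgroup (R.comap (QuotientGroup.mk' Q))).Normal := by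
      rcases (Nat.dvd_prime Nat.prime_two).1 hidx with h1 | h2
      · rw [Subgroup.index_eq_one] at h1
        rw [h1]; infer_instance
      · exact Subgroup.normal_of_index_eq_two h2
    have := hPn
    have : (P : Subgroup (R.comap (QuotientGroup.mk' Q))).Characteristic :=
      Sylow.characteristic_of_normal P hPn
    have hnorm : ((P : Subgroup (R.comap (QuotientGroup.mk' Q))).map
        (R.comap (QuotientGroup.mk' Q)).subtype).Normal :=
      ConjAct.normal_of_characteristic_of_normal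
    refine ⟨r, (P : Subgroup (R.comap (QuotientGroup.mk' Q))).map
      (R.comap (QuotientGroup.mk' Q)).subtype, hr, hnorm, ?_, P.isPGroup'.map _, Or.inl hr2⟩
    intro h
    rw [Subgroup.map_eq_bot_iff_of_injective _ (Subgroup.subtype_injective _)] at h
    refine P.ne_bot_of_dvd_card ?_ h
    rw [hcard, ha]
    exact Dvd.dvd.mul_right (dvd_pow_self r ha0) 2

/-- PIECE SOLV -/
theorem exists_normal_pgroup_of_solvable {G : Type*} [Group G] [Finite G] (S : Subgroup G)
    (hS : Group.IsSolvable S) (hS1 : S ≠ ⊥) :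
    ∃ (p : ℕ) (Q : Subgroup G), p.Prime ∧ Q ≤ S ∧ Q ≠ ⊥ ∧ IsPGroup p Q ∧
      S ≤ Subgroup.normalizer (Q : Set G) ∧ (p ≠ 2 ∨ 4 ≤ Nat.card Q ∨ Nat.card S = 2) := by
  classical
  have := hS
  have : Nontrivial S := (Subgroup.nontrivial_iff_ne_bot S).2 hS1
  obtain ⟨p, Q, hp, hQn, hQ1, hQp, hQ⟩ := ree2361_exists_normal_pgroup' S
  refine ⟨p, Q.map S.subtype, hp, Subgroup.map_subtype_le Q, ?_, hQp.map _, ?_, ?_⟩
  · intro h
    rw [Subgroup.map_eq_bot_iff_of_injective _ S.subtype_injective] at h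
    exact hQ1 h
  · intro s hs
    rw [Subgroup.mem_normalizer_iff]
    intro x
    constructor
    · rintro ⟨y, hy, rfl⟩
      exact ⟨⟨s, hs⟩ * y * ⟨s, hs⟩⁻¹, hQn.conj_mem y hy ⟨s, hs⟩, rfl⟩
    · rintro ⟨y, hy, hyx⟩
      refine ⟨⟨s, hs⟩⁻¹ * y * ⟨s, hs⟩, ?_, ?_⟩
      · have := hQn.conj_mem y hy (⟨s, hs⟩⁻¹)
        simpa using this
      · simp only [Subgroup.subtype_apply, Subgroup.coe_mul, Subgroup.coe_inv] at hyx ⊢
        rw [hyx]; group
  · rw [Subgroup.card_map_of_injective S.subtype_injective]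
    exact hQ

end Cfsg.Agent.Helper19
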