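import Mathlib

/-!
# CALL S1906 piece CHAR (helper19, for helper14)
-/

set_option autoImplicit false

namespace Cfsg.Agent.Helper19.S1906P

variable {F : Type*} [Field F] {V : Type*} [AddCommGroup V] [Module F V] {P : Type*} [Group P]

/-- CHAR. The character of `P` on an invariant line (`L = span {ℓ}`, `ρ x ℓ = c x • ℓ` with
`c x ≠ 0` as `ρ x` is invertible; multiplicative because `ℓ ≠ 0`). -/
theorem s1906_char (ρ : Representation F P V) (L : Submodule F V)
    (hL1 : Module.finrank F L = 1) (hL : ∀ x : P, ∀ v ∈ L, ρ x v ∈ L) :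
    ∃ lam : P →* Fˣ, ∀ x : P, ∀ v ∈ L, ρ x v = (lam x : F) • v := by
  obtain ⟨ℓ', hℓ'0, hℓ'⟩ := finrank_eq_one_iff'.mp hL1
  have hℓL : (ℓ' : V) ∈ L := ℓ'.2
  have hℓ0 : (ℓ' : V) ≠ 0 := fun h => hℓ'0 (Subtype.ext h)
  have hspan : ∀ v ∈ L, ∃ c : F, c • (ℓ' : V) = v := by
    intro v hv
    obtain ⟨c, hc⟩ := hℓ' ⟨v, hv⟩
    exact ⟨c, congrArg Subtype.val hc⟩
  choose c hc using fun x : P => hspan (ρ x (ℓ' : V)) (hL x _ hℓL)
  have hinj : ∀ a b : F, a • (ℓ' : V) = b • (ℓ' : V) → a = b :=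
    fun a b h => smul_left_injective F hℓ0 h
  let f : P →* F :=
    { toFun := c
      map_one' := by
        apply hinj
        rw [hc, map_one, one_smul, Module.End.one_apply]
      map_mul' := by
        intro x y
        apply hinj
        rw [hc, map_mul, Module.End.mul_apply, ← hc y, map_smul, ← hc x, smul_smul, mul_comm] }
  refine ⟨f.toHomUnits, fun x v hv => ?_⟩
  obtain ⟨d, rfl⟩ := hspan v hv
  rw [map_smul, ← hc x, MonoidHom.coe_toHomUnits]
  show d • c x • (ℓ' : V) = c x • d • (ℓ' : V)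
  rw [smul_comm]

end Cfsg.Agent.Helper19.S1906P
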