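import Mathlib

/-!
# CALL S1906 piece DIAG (helper19, double, for helper14)

Simultaneous diagonalization of a commuting family of involutions in characteristic `≠ 2`
(induction on the dimension: split by an element which is not `± 1`).
-/

set_option autoImplicit false

namespace Cfsg.Agent.Helper19.S1906P

variable {F : Type*} [Field F] {V : Type*} [AddCommGroup V] [Module F V] {P : Type*} [Group P]

/-- common eigenvectors of a commuting set of involutions, spanning an invariant subspace -/
theorem s1906_diag_aux (h2 : (2 : F) ≠ 0) [FiniteDimensional F V] (S : Set (Module.End F V))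
    (hcomm : ∀ f ∈ S, ∀ g ∈ S, f * g = g * f) (hsq : ∀ f ∈ S, f * f = 1) :
    ∀ (k : ℕ) (W : Submodule F V), Module.finrank F W = k → (∀ f ∈ S, ∀ w ∈ W, f w ∈ W) →
      ∃ (n : ℕ) (v : Fin n → V), LinearIndependent F v ∧ Submodule.span F (Set.range v) = W ∧
        ∀ f ∈ S, ∀ j, f (v j) = v j ∨ f (v j) = -v j := by
  intro k
  induction k using Nat.strong_induction_on with
  | _ k ih =>
  intro W hk hW
  by_cases hall : ∀ f ∈ S, (∀ w ∈ W, f w = w) ∨ (∀ w ∈ W, f w = -w)
  · -- any basis of `W` works
    refine ⟨Module.finrank F W, fun j => ((Module.finBasis F W) j : V), ?_, ?_, ?_⟩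
    · exact (Module.finBasis F W).linearIndependent.map' W.subtype (Submodule.ker_subtype W)
    · have hr : Set.range (fun j => ((Module.finBasis F W) j : V)) =
          W.subtype '' Set.range (Module.finBasis F W) := by
        rw [← Set.range_comp]; rfl
      rw [hr, Submodule.span_image, (Module.finBasis F W).span_eq, Submodule.map_top,
        Submodule.range_subtype]
    · intro f hf j
      rcases hall f hf with h | h
      · exact Or.inl (h _ ((Module.finBasis F W) j).2)
      · exact Or.inr (h _ ((Module.finBasis F W) j).2)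
  · push Not at hall
    obtain ⟨f, hf, hne1, hne2⟩ := hall
    have hff : ∀ v, f (f v) = v := fun v => by
      have h := congrArg (fun g : Module.End F V => g v) (hsq f hf)
      simpa using h
    have hmemp : ∀ v, v ∈ W ⊓ LinearMap.ker (f - 1) ↔ v ∈ W ∧ f v = v := by
      intro v
      rw [Submodule.mem_inf, LinearMap.mem_ker, LinearMap.sub_apply, Module.End.one_apply,
        sub_eq_zero]
    have hmemm : ∀ v, v ∈ W ⊓ LinearMap.ker (f + 1) ↔ v ∈ W ∧ f v = -v := by
      intro v
      rw [Submodule.mem_inf, LinearMap.mem_ker, LinearMap.add_apply, Module.End.one_apply,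
        add_eq_zero_iff_eq_neg]
    have hdisj : Disjoint (W ⊓ LinearMap.ker (f - 1)) (W ⊓ LinearMap.ker (f + 1)) := by
      rw [Submodule.disjoint_def]
      intro v hvp hvm
      have e1 := ((hmemp v).mp hvp).2
      have e3 := ((hmemm v).mp hvm).2
      have e4 : (2 : F) • v = 0 := by
        have e5 : v = -v := by rw [← e3, e1]
        rw [two_smul]
        nth_rewrite 1 [e5]
        exact neg_add_cancel v
      exact (smul_eq_zero.mp e4).resolve_left h2
    have hsup : (W ⊓ LinearMap.ker (f - 1)) ⊔ (W ⊓ LinearMap.ker (f + 1)) = W := by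
      apply le_antisymm
      · exact sup_le inf_le_left inf_le_left
      · intro w hw
        have hfw : f w ∈ W := hW f hf w hw
        have e : w = (2 : F)⁻¹ • (w + f w) + (2 : F)⁻¹ • (w - f w) := by
          rw [← smul_add, add_add_sub_cancel, ← two_smul F w, smul_smul, inv_mul_cancel₀ h2,
            one_smul]
        rw [e]
        apply Submodule.add_mem_sup
        · rw [hmemp]
          refine ⟨W.smul_mem _ (W.add_mem hw hfw), ?_⟩
          rw [map_smul, map_add, hff, add_comm]
        · rw [hmemm]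
          refine ⟨W.smul_mem _ (W.sub_mem hw hfw), ?_⟩
          rw [map_smul, map_sub, hff, ← smul_neg, neg_sub]
    have hpW : W ⊓ LinearMap.ker (f - 1) ≠ W := by
      intro h
      obtain ⟨w, hw, hne⟩ := hne1
      rw [← h] at hw
      exact hne ((hmemp w).mp hw).2
    have hmW : W ⊓ LinearMap.ker (f + 1) ≠ W := by
      intro h
      obtain ⟨w, hw, hne⟩ := hne2
      rw [← h] at hw
      exact hne ((hmemm w).mp hw).2
    have hplt : Module.finrank F ↥(W ⊓ LinearMap.ker (f - 1)) < k := by
      rw [← hk]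
      exact Submodule.finrank_lt_finrank_of_lt (lt_of_le_of_ne inf_le_left hpW)
    have hmlt : Module.finrank F ↥(W ⊓ LinearMap.ker (f + 1)) < k := by
      rw [← hk]
      exact Submodule.finrank_lt_finrank_of_lt (lt_of_le_of_ne inf_le_left hmW)
    have hpinv : ∀ g ∈ S, ∀ w ∈ W ⊓ LinearMap.ker (f - 1), g w ∈ W ⊓ LinearMap.ker (f - 1) := by
      intro g hg w hw
      rw [hmemp] at hw ⊢
      refine ⟨hW g hg w hw.1, ?_⟩
      have h := congrArg (fun T : Module.End F V => T w) (hcomm f hf g hg)
      simp only [Module.End.mul_apply] at h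
      rw [h, hw.2]
    have hminv : ∀ g ∈ S, ∀ w ∈ W ⊓ LinearMap.ker (f + 1), g w ∈ W ⊓ LinearMap.ker (f + 1) := by
      intro g hg w hw
      rw [hmemm] at hw ⊢
      refine ⟨hW g hg w hw.1, ?_⟩
      have h := congrArg (fun T : Module.End F V => T w) (hcomm f hf g hg)
      simp only [Module.End.mul_apply] at h
      rw [h, hw.2, map_neg]
    obtain ⟨n₁, v₁, hli₁, hsp₁, hev₁⟩ := ih _ hplt _ rfl hpinv
    obtain ⟨n₂, v₂, hli₂, hsp₂, hev₂⟩ := ih _ hmlt _ rfl hminv
    refine ⟨n₁ + n₂, Sum.elim v₁ v₂ ∘ finSumFinEquiv.symm, ?_, ?_, ?_⟩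
    · have hd : Disjoint (Submodule.span F (Set.range v₁)) (Submodule.span F (Set.range v₂)) := by
        rw [hsp₁, hsp₂]; exact hdisj
      exact (LinearIndependent.sum_type hli₁ hli₂ hd).comp _ finSumFinEquiv.symm.injective
    · rw [finSumFinEquiv.symm.surjective.range_comp, Set.Sum.elim_range, Submodule.span_union,
        hsp₁, hsp₂, hsup]
    · intro g hg j
      simp only [Function.comp_apply]
      rcases finSumFinEquiv.symm j with j₁ | j₂
      · exact hev₁ g hg j₁
      · exact hev₂ g hg j₂

/-- DIAG. Simultaneous diagonalization of `E` (abelian of exponent `2`, order `8`, faithful) on the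
`3`-space `V`. -/
theorem s1906_diag (h2 : (2 : F) ≠ 0) (hV : Module.finrank F V = 3)
    (ρ : Representation F P V) (E : Subgroup P)
    (hab : ∀ a ∈ E, ∀ a' ∈ E, a * a' = a' * a) (hsq : ∀ a ∈ E, a * a = 1)
    (hfaith : ∀ a ∈ E, (∀ v : V, ρ a v = v) → a = 1) (hcard : Nat.card E = 8) :
    ∃ b : Module.Basis (Fin 3) F V, ∀ a ∈ E, ∀ j, ρ a (b j) = b j ∨ ρ a (b j) = -b j := by
  have hfd : FiniteDimensional F V := Module.finite_of_finrank_pos (by rw [hV]; norm_num)
  have hc : ∀ f ∈ ρ '' (E : Set P), ∀ g ∈ ρ '' (E : Set P), f * g = g * f := by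
    rintro _ ⟨a, ha, rfl⟩ _ ⟨a', ha', rfl⟩
    rw [← map_mul, ← map_mul, hab a ha a' ha']
  have hs : ∀ f ∈ ρ '' (E : Set P), f * f = 1 := by
    rintro _ ⟨a, ha, rfl⟩
    rw [← map_mul, hsq a ha, map_one]
  obtain ⟨n, v, hli, hsp, hev⟩ := s1906_diag_aux h2 (ρ '' (E : Set P)) hc hs _ ⊤ rfl
    (fun _ _ _ _ => trivial)
  have hsp' : ⊤ ≤ Submodule.span F (Set.range v) := by rw [hsp]
  have hn : n = 3 := by
    have h := Module.finrank_eq_card_basis (Module.Basis.mk hli hsp')
    rw [hV, Fintype.card_fin] at h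
    exact h.symm
  subst hn
  refine ⟨Module.Basis.mk hli hsp', fun a ha j => ?_⟩
  rw [Module.Basis.mk_apply]
  exact hev (ρ a) ⟨a, ha, rfl⟩ j

end Cfsg.Agent.Helper19.S1906P
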